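import Mathlib
import Cfsg.Agent.L.HJ3
import Cfsg.Agent.H05.CT1
import Cfsg.Agent.H26.Syl

/-!
Groups with a Sylow 2-subgroup of the type of the second Janko group: fusion (namespace `H03.JT`).
`CS` (coded Sylow subgroup), `CS.S`, `CS.Q`, `CS.fuse`, `CS.strong`, `CS.exists_n`.
-/

set_option autoImplicit false
set_option linter.unusedSectionVars false
set_option synthInstance.maxSize 4096

namespace H03.JT
open Cfsg BG Subgroup L.HJ

def sc (a : ℕ) : ℕ := Nat.add (Nat.mod a 32) (Nat.mul 32 (gt 6 (nat_lit 14279232) (Nat.mod (Nat.div a 32) 4)))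
def ds (c : ℕ) : ℕ := Nat.mod (Nat.add (Nat.mod c 32) (Nat.mul 32 (Nat.div (Nat.add (Nat.div c 32) 9) 18))) 128
def mm (a b : ℕ) : ℕ := ds (mu (sc a) (sc b))
def ii (a : ℕ) : ℕ := ds (iv (sc a))

theorem mm_lt (a b : ℕ) : mm a b < 128 := Nat.mod_lt _ (by decide)
theorem ii_lt (a : ℕ) : ii a < 128 := Nat.mod_lt _ (by decide)
theorem mm_ii : ∀ a < 128, mm a (ii a) = 0 := by decide +kernel

variable {G : Type*} [Group G] [Finite G]

/-- a coded Sylow subgroup -/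
structure CS (ε : ℕ → G) : Prop where
  zero : ε 0 = 1
  mul : ∀ a < 128, ∀ b < 128, ε a * ε b = ε (mm a b)
  inj : ∀ a < 128, ∀ b < 128, ε a = ε b → a = b
  syl : ¬ 256 ∣ Nat.card G

/-- elements centralising `x` modulo the central involution `z` -/
def D (z x : G) (hz : ∀ g, g * z = z * g) (z2 : z * z = 1) : Subgroup G where
  carrier := {k | k * x * k⁻¹ = x ∨ k * x * k⁻¹ = x * z}
  one_mem' := .inl (by simp)
  mul_mem' := by
    have c : ∀ g : G, g * z * g⁻¹ = z := fun g => by rw [hz, mul_inv_cancel_right]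
    have k : ∀ a b : G, a * b * x * (a * b)⁻¹ = a * (b * x * b⁻¹) * a⁻¹ := fun a b => by group
    rintro a b (ha | ha) (hb | hb) <;> simp only [Set.mem_ofPred_eq, k, hb, ← conj_mul, ha, c]
    · simp
    · simp
    · simp
    · left; rw [mul_assoc, z2, mul_one]
  inv_mem' := by
    rintro a (ha | ha)
    · left; rw [← ha]; nth_rw 2 [ha]; group
    · right
      have : a * (x * z) * a⁻¹ = x := by rw [← conj_mul, ha, hz a, mul_inv_cancel_right, mul_assoc, z2, mul_one]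
      nth_rw 1 [← this]; group

namespace CS
variable {ε : ℕ → G} (h : CS ε)
include h

theorem inv {a : ℕ} (ha : a < 128) : (ε a)⁻¹ = ε (ii a) :=
  inv_eq_of_mul_eq_one_right (by rw [h.mul a ha _ (ii_lt a), mm_ii a ha, h.zero])

theorem eq {a b : ℕ} (ha : a < 128) (hb : b < 128) : ε a = ε b ↔ a = b := ⟨h.inj a ha b hb, fun e => e ▸ rfl⟩

theorem eq1 {a : ℕ} (ha : a < 128) : ε a = 1 ↔ a = 0 := by rw [← h.zero, h.eq ha (by decide)]

theorem cm {a b : ℕ} (ha : a < 128) (hb : b < 128) : ε a * ε b = ε b * ε a ↔ mm a b = mm b a := by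
  rw [h.mul a ha b hb, h.mul b hb a ha, h.eq (mm_lt _ _) (mm_lt _ _)]

theorem cj {a b : ℕ} (ha : a < 128) (hb : b < 128) : ε a * ε b * (ε a)⁻¹ = ε (mm (mm a b) (ii a)) := by
  rw [h.inv ha, h.mul a ha b hb, h.mul _ (mm_lt _ _) _ (ii_lt _)]

theorem sq {a : ℕ} (ha : a < 128) : ε a * ε a = 1 ↔ mm a a = 0 := by rw [h.mul a ha a ha, h.eq1 (mm_lt _ _)]

/-- the subgroup of the codes below `n` -/
def sub (n : ℕ) (hn : n = 32 ∨ n = 128) : Subgroup G where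
  carrier := {x | ∃ a < n, ε a = x}
  one_mem' := ⟨0, by omega, h.zero⟩
  mul_mem' := by
    rintro _ _ ⟨a, ha, rfl⟩ ⟨b, hb, rfl⟩
    have t : ∀ a < 32, ∀ b < 32, mm a b < 32 := by decide +kernel
    refine ⟨mm a b, ?_, (h.mul a (by omega) b (by omega)).symm⟩
    rcases hn with rfl | rfl
    exacts [t a ha b hb, mm_lt _ _]
  inv_mem' := by
    rintro _ ⟨a, ha, rfl⟩
    have t : ∀ a < 32, ii a < 32 := by decide +kernel
    refine ⟨ii a, ?_, (h.inv (by omega)).symm⟩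
    rcases hn with rfl | rfl
    exacts [t a ha, ii_lt _]

theorem card_sub (n : ℕ) (hn : n = 32 ∨ n = 128) : Nat.card (h.sub n hn) = n := by
  have : Function.Bijective fun a : Fin n => (⟨ε a, a, a.2, rfl⟩ : h.sub n hn) :=
    ⟨fun a b e => Fin.ext (h.inj _ (by omega) _ (by omega) (congrArg Subtype.val e)),
      fun ⟨_, a, ha, e⟩ => ⟨⟨a, ha⟩, Subtype.ext e⟩⟩
  rw [← Nat.card_eq_of_bijective _ this]; simp

abbrev S : Subgroup G := h.sub 128 (.inr rfl)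
abbrev Q : Subgroup G := h.sub 32 (.inl rfl)

theorem memS {a : ℕ} (ha : a < 128) : ε a ∈ h.S := ⟨a, ha, rfl⟩
theorem memQ {a : ℕ} (ha : a < 32) : ε a ∈ h.Q := ⟨a, ha, rfl⟩
theorem memQ_iff {a : ℕ} (ha : a < 128) : ε a ∈ h.Q ↔ a < 32 :=
  ⟨fun ⟨b, hb, e⟩ => h.inj b (by omega) a ha e ▸ hb, h.memQ⟩
theorem QS : h.Q ≤ h.S := fun _ ⟨a, ha, e⟩ => ⟨a, by omega, e⟩
theorem cardS : Nat.card h.S = 128 := h.card_sub _ _
theorem cardQ : Nat.card h.Q = 32 := h.card_sub _ _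
theorem pS : IsPGroup 2 h.S := IsPGroup.of_card (n := 7) h.cardS

theorem isSyl {H : Subgroup G} (hH : h.S ≤ H) : H26.IsSyl 2 h.S H := by
  refine H26.isSyl_of_not_dvd hH h.pS fun ⟨k, hk⟩ => h.syl (Dvd.dvd.trans ⟨k, ?_⟩ H.card_subgroup_dvd_card)
  have := (h.S.subgroupOf H).card_mul_index
  rw [H26.card_subgroupOf hH, h.cardS, ← relIndex, hk] at this
  omega

theorem z2 : ε 1 * ε 1 = 1 := (h.sq (by decide)).2 (by decide +kernel)
theorem z1 : ε 1 ≠ 1 := by rw [Ne, h.eq1 (by decide)]; decide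
theorem e3 : ε 2 * ε 1 = ε 3 := by rw [h.mul _ (by decide) _ (by decide)]; congr 1
theorem e3' : ε 1 * ε 2 = ε 3 := by rw [h.mul _ (by decide) _ (by decide)]; congr 1
theorem e31 : ε 3 * ε 1 = ε 2 := by rw [h.mul _ (by decide) _ (by decide)]; congr 1
theorem zc {a : ℕ} (ha : a < 128) : ε a * ε 1 = ε 1 * ε a := by
  have t : ∀ a < 128, mm a 1 = mm 1 a := by decide +kernel
  exact (h.cm ha (by decide)).2 (t a ha)
theorem S_le : h.S ≤ C_[ε 1] := fun _ ⟨_, ha, e⟩ => e ▸ mem_cent1.2 (h.zc ha)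

theorem swap {g : G} (hg : g * ε 2 * g⁻¹ = ε 1) :
    ∃ m, m * ε 2 * m⁻¹ = ε 1 ∧ (m * ε 1 * m⁻¹ = ε 2 ∨ m * ε 1 * m⁻¹ = ε 3) := by
  have : Fact (Nat.Prime 2) := ⟨Nat.prime_two⟩
  obtain ⟨d, hd, e⟩ := (h.isSyl h.S_le).exists_cj_le (H26.isPGroup_cj (h.pS.to_le (inf_le_left (b := C_[ε 2]))) g)
    (H26.cj_le_iff.2 fun r hr => mem_cent1.2 (by rw [← hg, conj_mul, conj_mul, mem_cent1.1 hr.2]))
  rw [H26.cj_cj, H26.cj_le_iff] at e
  have m1 : d * g * ε 2 * (d * g)⁻¹ = ε 1 := by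
    rw [show d * g * ε 2 * (d * g)⁻¹ = d * (g * ε 2 * g⁻¹) * d⁻¹ by group, hg, mem_cent1.1 hd, mul_inv_cancel_right]
  refine ⟨d * g, m1, ?_⟩
  generalize d * g = m at e m1
  obtain ⟨b, hb, eb⟩ := e (ε 12) ⟨h.memS (by decide), mem_cent1.2 ((h.cm (by decide) (by decide)).2 (by decide +kernel))⟩
  have e1 : m * ε 1 * m⁻¹ = ε (mm b b) := by
    rw [← h.mul b hb b hb, eb, conj_mul, h.mul _ (by decide) _ (by decide)]; congr 3
  have t : ∀ b < 128, mm (mm b b) (mm b b) = 0 → mm b b ≠ 0 → mm b b ≠ 1 → mm b b = 2 ∨ mm b b = 3 := by decide +kernel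
  rw [e1]
  refine (t b hb ?_ (fun e => ?_) fun e => ?_).imp (congrArg ε) (congrArg ε)
  · rw [← h.sq (mm_lt _ _), ← e1, conj_mul, h.z2]; simp
  · rw [e, h.zero, conj_eq_one_iff] at e1; exact h.z1 e1
  · have := e1.trans ((congrArg ε e).trans m1.symm)
    rw [mul_left_inj, mul_right_inj, h.eq (by decide) (by decide)] at this; omega

theorem fuse (h2 : ∀ H : Subgroup G, H.Normal → H.index ≠ 2) : ∃ c, c * ε 1 = ε 1 * c ∧ c * ε 4 * c⁻¹ = ε 2 := by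
  have t : ∀ a < 128, mm a a = 0 → a ≠ 0 → mm a 2 = mm 2 a → ∀ b < 128, mm a b = mm b a → mm (mm b b) (mm b b) = 0 → mm b b ≠ 0 →
      mm b b ≠ a → (mm b b = 1 ∧ (a = 2 ∨ a = 3)) ∨ (mm b b = 2 ∧ (a = 1 ∨ a = 3)) ∨ (mm b b = 3 ∧ (a = 1 ∨ a = 2)) := by
    have : ∀ a < 128, mm a a = 0 → mm a 2 = mm 2 a → ∀ b < 128, mm a b = mm b a → mm (mm b b) (mm b b) = 0 → mm b b ≠ 0 →
      mm b b < 4 ∧ a < 4 := by decide +kernel
    intro a ha h1 h2 h3 b hb h4 h5 h6 h7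
    have := this a ha h1 h3 b hb h4 h5 h6
    omega
  have t' : ∀ a < 128, ∀ b < 128, (mm (mm a b) 2 = mm 2 (mm a b) ↔ (mm a 2 = mm 2 a ↔ mm b 2 = mm 2 b)) := by
    decide +kernel
  classical
  have : Fact (Nat.Prime 2) := ⟨Nat.prime_two⟩
  let φ : h.S →* ℤˣ :=
    { toFun := fun x => if (x : G) * ε 2 = ε 2 * x then 1 else -1
      map_one' := by simp
      map_mul' := by
        rintro ⟨_, a, ha, rfl⟩ ⟨_, b, hb, rfl⟩
        show (if ε a * ε b * ε 2 = ε 2 * (ε a * ε b) then (1 : ℤˣ) else -1) =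
          (if ε a * ε 2 = ε 2 * ε a then 1 else -1) * (if ε b * ε 2 = ε 2 * ε b then 1 else -1)
        simp only [h.mul a ha b hb, h.cm ha (show 2 < 128 by decide), h.cm hb (show 2 < 128 by decide),
          h.cm (mm_lt a b) (show 2 < 128 by decide), t' a ha b hb]
        by_cases c1 : mm a 2 = mm 2 a <;> by_cases c2 : mm b 2 = mm 2 b <;> simp [c1, c2] }
  have hS : ¬ 2 ∣ h.S.index := by simpa using (h.isSyl le_top).not_dvd
  have t2 : ε 4 * ε 4 = 1 := (h.sq (by decide)).2 (by decide +kernel)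
  obtain ⟨g, hg, hw, ew⟩ := H05.thompson_transfer_ext hS φ (a := -1) (by decide) (by decide)
    (fun b _ => Int.units_eq_one_or b) (y := ε 4) (by rw [pow_two, t2]) (fun ψ => by
      refine (Int.units_eq_one_or _).resolve_right fun e => h2 ψ.ker inferInstance ?_
      have : ψ.range = ⊤ := eq_top_iff.2 fun u _ => by
        rcases Int.units_eq_one_or u with rfl | rfl
        exacts [one_mem _, ⟨_, e⟩]
      rw [index_ker, this, card_top, Nat.card_eq_fintype_card, Fintype.card_units_int])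
    (h.pS.to_le (inf_le_left (b := C_[ε 4]))) inf_le_right
  have ew : g⁻¹ * ε 4 * g * ε 2 = ε 2 * (g⁻¹ * ε 4 * g) := by
    by_contra c
    simp only [φ, MonoidHom.coe_mk, OneHom.coe_mk, if_neg c] at ew
    exact absurd ew (by decide)
  obtain ⟨x, rfl⟩ : ∃ x, g = x⁻¹ := ⟨g⁻¹, by simp⟩
  rw [inv_inv] at hg hw ew
  obtain ⟨a, ha, ea⟩ := hw
  have c10 : ε 10 * ε 4 = ε 4 * ε 10 := (h.cm (by decide) (by decide)).2 (by decide +kernel)
  obtain ⟨b, hb, eb⟩ := hg (ε 10) ⟨h.memS (by decide), mem_cent1.2 c10⟩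
  have e1 : x * ε 1 * x⁻¹ = ε (mm b b) := by
    rw [← h.mul b hb b hb, eb, conj_mul, h.mul _ (by decide) _ (by decide)]; congr 3
  have k : ∀ d x y : G, d * x * y * (d * x)⁻¹ = d * (x * y * x⁻¹) * d⁻¹ := fun _ _ _ => by group
  have c1 : ε 4 * ε 1 * (ε 4)⁻¹ = ε 1 := by rw [h.cj (by decide) (by decide)]; congr 1
  have c2 : ε 4 * ε 2 * (ε 4)⁻¹ = ε 3 := by rw [h.cj (by decide) (by decide)]; congr 1
  have c3 : ε 4 * ε 3 * (ε 4)⁻¹ = ε 2 := by rw [h.cj (by decide) (by decide)]; congr 1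
  have k1 : ∀ x : G, x * ε 4 * x⁻¹ = ε 2 ∨ x * ε 4 * x⁻¹ = ε 3 → x * ε 1 * x⁻¹ = ε 1 →
      ∃ c, c * ε 1 = ε 1 * c ∧ c * ε 4 * c⁻¹ = ε 2 := by
    rintro x (e | e) e'
    · exact ⟨x, mul_inv_eq_iff_eq_mul.1 e', e⟩
    · exact ⟨ε 4 * x, mul_inv_eq_iff_eq_mul.1 (by rw [k, e', c1]), by rw [k, e, c3]⟩
  have k2 : ∀ x : G, x * ε 4 * x⁻¹ = ε 1 ∨ x * ε 4 * x⁻¹ = ε 3 → x * ε 1 * x⁻¹ = ε 2 →
      ∃ c, c * ε 1 = ε 1 * c ∧ c * ε 4 * c⁻¹ = ε 2 := fun x e e' => by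
    obtain ⟨m, m1, m2⟩ := h.swap (g := x⁻¹) (by rw [← e']; group)
    refine k1 (m * x) ?_ (by rw [k, e', m1])
    rw [k]
    rcases e with e | e <;> rw [e]
    · exact m2
    · have : m * ε 3 * m⁻¹ = m * ε 1 * m⁻¹ * ε 1 := by rw [← h.e3', ← conj_mul, m1]
      rw [this]
      rcases m2 with m2 | m2 <;> rw [m2]
      exacts [.inr h.e3, .inl h.e31]
  rcases t a ha (by rw [← h.sq ha, ea, conj_mul, t2]; simp)
    (fun e => by rw [e, h.zero, eq_comm, conj_eq_one_iff, h.eq1 (by decide)] at ea; omega)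
    (by rw [← h.cm ha (by decide), ea, ew]) b hb (by rw [← h.cm ha hb, ea, eb, conj_mul, conj_mul, c10])
    (by rw [← h.sq (mm_lt _ _), ← e1, conj_mul, h.z2]; simp)
    (fun e => by rw [e, h.zero, conj_eq_one_iff] at e1; exact h.z1 e1)
    (fun e => by rw [e, ea, mul_left_inj, mul_right_inj, h.eq (by decide) (by decide)] at e1; omega) with
    ⟨e, t⟩ | ⟨e, t⟩ | ⟨e, t⟩ <;> rw [e] at e1
  · exact k1 x (by rw [← ea]; exact t.imp (congrArg ε) (congrArg ε)) e1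
  · exact k2 x (by rw [← ea]; exact t.imp (congrArg ε) (congrArg ε)) e1
  · refine k2 (ε 4 * x) ?_ (by rw [k, e1, c3])
    rw [k, ← ea]
    rcases t with rfl | rfl
    exacts [.inl c1, .inr c2]

variable (hz : ∀ g, g * ε 1 = ε 1 * g)
include hz

theorem exd {x g : G} (hg : g * x * g⁻¹ = ε 2) {R : Subgroup G} (hR : IsPGroup 2 R) (hx : R ≤ D (ε 1) x hz h.z2) :
    ∃ m, (m * x * m⁻¹ = ε 2 ∨ m * x * m⁻¹ = ε 3) ∧ ∀ r ∈ R, m * r * m⁻¹ ∈ h.S := by
  have : Fact (Nat.Prime 2) := ⟨Nat.prime_two⟩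
  have t : ∀ a < 128, mm (mm a 2) (ii a) = 2 ∨ mm (mm a 2) (ii a) = 3 := by decide +kernel
  have hS : h.S ≤ D (ε 1) (ε 2) hz h.z2 := by
    rintro _ ⟨a, ha, rfl⟩
    show _ ∨ _
    rw [h.e3, h.cj ha (by decide)]
    exact (t a ha).imp (congrArg ε) (congrArg ε)
  obtain ⟨d, hd, e⟩ := (h.isSyl hS).exists_cj_le (H26.isPGroup_cj hR g) (H26.cj_le_iff.2 fun r hr => by
    show _ ∨ _
    have c : g * ε 1 * g⁻¹ = ε 1 := by rw [hz, mul_inv_cancel_right]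
    rw [← hg, ← c, conj_mul, conj_mul, conj_inv, conj_mul]
    exact (hx hr).imp (fun e => by rw [e]) fun e => by rw [e])
  rw [H26.cj_cj, H26.cj_le_iff] at e
  refine ⟨d * g, ?_, e⟩
  rw [show d * g * x * (d * g)⁻¹ = d * (g * x * g⁻¹) * d⁻¹ by group, hg, ← h.e3]
  exact hd

variable {c : G} (hc : c * ε 4 * c⁻¹ = ε 2)
include hc

theorem strong {q : G} (hq : q ∈ h.Q) (g : G) (hg : g * q * g⁻¹ ∈ h.S) : g * q * g⁻¹ ∈ h.Q := by
  obtain ⟨a, ha, rfl⟩ := hq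
  obtain ⟨y, hy, ey⟩ := hg
  by_contra hn
  rw [← ey, h.memQ_iff hy] at hn
  have cz : ∀ g : G, g * ε 1 * g⁻¹ = ε 1 := fun g => by rw [hz, mul_inv_cancel_right]
  have t1 : ∀ a < 32, mm a a = 0 ∨ mm a a = 1 := by decide +kernel
  have t2 : ∀ y < 128, ¬ y < 32 → mm y y ≠ 1 ∧ (mm y y = 0 → mm 2 y = mm y 2 ∧ ∃ b < 128, mm b b = 0 ∧ mm b 2 = mm 2 b ∧
      mm (mm b y) (ii b) = mm y 1) := by decide +kernel
  have t3 : ∀ a < 32, mm a a = 0 → a = 0 ∨ a = 1 ∨ ∃ b < 128, mm (mm b a) (ii b) = 2 ∨ mm (mm b a) (ii b) = 4 := by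
    decide +kernel
  have e2 : ε (mm y y) = g * ε (mm a a) * g⁻¹ := by
    rw [← h.mul y hy y hy, ey, conj_mul, h.mul a (by omega) a (by omega)]
  have a2 : mm a a = 0 := (t1 a ha).resolve_right fun e => (t2 y hy hn).1 (by
    rw [e, cz, h.eq (mm_lt _ _) (by decide)] at e2; exact e2)
  have y2 : mm y y = 0 := by rw [a2, h.zero, mul_one, mul_inv_cancel, h.eq1 (mm_lt _ _)] at e2; exact e2
  obtain ⟨u, hu⟩ : ∃ u : G, u * ε a * u⁻¹ = ε 2 := by
    rcases t3 a ha a2 with rfl | rfl | ⟨b, hb, e | e⟩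
    · rw [h.zero, mul_one, mul_inv_cancel, h.eq1 hy] at ey; omega
    · rw [cz, h.eq hy (by decide)] at ey; omega
    · exact ⟨ε b, by rw [h.cj hb (by omega), e]⟩
    · exact ⟨c * ε b, by rw [← hc, ← e, ← h.cj hb (by omega)]; group⟩
  obtain ⟨s1, b, hb, b2, bs, by'⟩ := (t2 y hy hn).2 y2
  have s1 := (h.cm (by decide) hy).2 s1
  have by' : ε b * ε y * (ε b)⁻¹ = ε y * ε 1 := by rw [h.cj hb hy, by', h.mul y hy _ (by decide)]
  obtain ⟨m, m1, m2⟩ := h.exd hz (x := ε y) (g := u * g⁻¹) (by rw [ey, ← hu]; group)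
    (h.pS.to_le (inf_le_left (b := D (ε 1) (ε y) hz h.z2))) inf_le_right
  obtain ⟨b', hb', eb⟩ := m2 (ε b) ⟨h.memS hb, .inr by'⟩
  obtain ⟨s', hs', es⟩ := m2 (ε 2) ⟨h.memS (by decide), .inl (by rw [s1, mul_inv_cancel_right])⟩
  obtain ⟨w, hw, ew⟩ : ∃ w, (w = 2 ∨ w = 3) ∧ m * ε y * m⁻¹ = ε w := m1.elim (fun e => ⟨_, .inl rfl, e⟩) fun e => ⟨_, .inr rfl, e⟩
  have t4 : ∀ w, w = 2 ∨ w = 3 → ∀ b < 128, mm b b = 0 → mm (mm b w) (ii b) = mm w 1 → ∀ s < 128, mm s s = 0 →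
      mm b s = mm s b → mm s w = mm w s → s = 0 ∨ s = 1 := by
    rintro w (rfl | rfl) <;> decide +kernel
  have hw' : w < 128 := by omega
  rcases t4 w hw b' hb' (by rw [← h.sq hb', eb, conj_mul, (h.sq hb).2 b2]; simp)
    (by
      rw [← h.eq (mm_lt _ _) (mm_lt _ _), ← h.cj hb' hw', ← h.mul w hw' _ (by decide), eb, ← ew, ← cz m, conj_mul, conj_mul,
        conj_inv, conj_mul, by'])
    s' hs' (by rw [← h.sq hs', es, conj_mul, (h.sq (by decide)).2 (by decide +kernel)]; simp)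
    (by rw [← h.cm hb' hs', eb, es, conj_mul, conj_mul, (h.cm hb (by decide)).2 bs])
    (by rw [← h.cm hs' hw', es, ← ew, conj_mul, conj_mul, s1]) with rfl | rfl
  · rw [h.zero, eq_comm, conj_eq_one_iff, h.eq1 (by decide)] at es; omega
  · rw [← cz m, mul_left_inj, mul_right_inj, h.eq (by decide) (by decide)] at es; omega

theorem exists_n : ∃ n ∈ N_(h.Q), n * ε 4 * n⁻¹ = ε 2 ∨ n * ε 4 * n⁻¹ = ε 3 := by
  have t : ∀ a < 32, mm (mm a 4) (ii a) = 4 ∨ mm (mm a 4) (ii a) = mm 4 1 := by decide +kernel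
  obtain ⟨m, m1, m2⟩ := h.exd hz hc (h.pS.to_le h.QS) (by
    rintro _ ⟨a, ha, rfl⟩
    show _ ∨ _
    rw [h.cj (by omega) (by decide), h.mul _ (by decide) _ (by decide)]
    exact (t a ha).imp (congrArg ε) (congrArg ε))
  exact ⟨m, H26.mem_normalizer_of_cj_le (H26.cj_le_iff.2 fun q hq => h.strong hz hc hq m (m2 q hq)), m1⟩

end CS

end H03.JT
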