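import Mathlib
import Cfsg.Agent.H03.LX2

/-!
Large extraspecial 2-subgroups, part 3 (namespace H03): singular subgroups (`Sing`), the structure of groups with a large
extraspecial subgroup.
-/

set_option autoImplicit false
open Cfsg BG H04 Subgroup
open scoped commutatorElement

namespace H03

variable {G : Type*} [Group G] [Finite G] {H K L M N P A B Q Q' R U W : Subgroup G} {a b g s t u v x y z : G} {p : ℕ}

/-- `Q_u = O₂(C(u))` -/
abbrev QQ (u : G) : Subgroup G := pCoreOf 2 C_[u]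

omit [Finite G] in
theorem QQ_cj (g u : G) : QQ (g * u * g⁻¹) = cj g (QQ u) := by
  rw [QQ, ← cj_cent1]; exact (H26.cj_pCoreOf g _).symm

/-- singular subgroups -/
structure Sing (U : Subgroup G) : Prop where
  es : ∀ u ∈ U, u ≠ 1 → ES (QQ u) u
  le : ∀ u ∈ U, u ≠ 1 → U ≤ QQ u
  sq : ∀ u ∈ U, u * u = 1

theorem sing_of (hz : orderOf z = 2) (hE : IsExtraspecial 2 (QQ z)) (hC : C_(QQ z) ≤ QQ z) (h2 : ∀ u ∈ U, u * u = 1)
    (hS : ∀ u ∈ U, u ≠ 1 → ∃ g : G, g * z * g⁻¹ = u) (hO : ∀ u ∈ U, ∀ v ∈ U, u ≠ 1 → v ≠ 1 → v ∈ QQ u) : Sing U := by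
  obtain ⟨h, -, -⟩ := es_of' hE hz (H02.pCoreOf_le _) (H02.le_normalizer_pCoreOf _) (inf_le_right.trans hC)
  refine ⟨fun u hu h1 => ?_, fun u hu h1 v hv => ?_, h2⟩
  · obtain ⟨g, rfl⟩ := hS u hu h1
    exact QQ_cj g z ▸ h.cj g
  · by_cases e : v = 1
    · exact e ▸ one_mem _
    · exact hO u hu v hv h1 e

namespace Sing

omit [Finite G] in
theorem norm (h : Sing U) : ⨆ u ∈ (U : Set G) \ {1}, QQ u ≤ N_(U) :=
  iSup₂_le fun u hu => (h.es u hu.1 hu.2).aes.le_norm (h.le u hu.1 hu.2) hu.1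

theorem step (h : Sing U) (hW : W ≤ U) (ha : a ∈ U) (hb : b ∈ U) (h1 : a ∉ W) (h2 : b ∉ W) :
    ∃ g ∈ ⨆ u ∈ (U : Set G) \ {1}, QQ u, g ∈ C_(W) ∧ g * a * g⁻¹ = b := by
  by_cases e : a⁻¹ * b = 1
  · exact ⟨1, one_mem _, one_mem _, by simpa using inv_mul_eq_one.1 e⟩
  have hu := mul_mem (inv_mem ha) hb
  have h3 := h.es _ hu e
  have h4 := h.le _ hu e
  obtain ⟨q, q1, q2, q3⟩ := h3.exists_conj (A := W ⊔ zpowers (a⁻¹ * b)) (sup_le (hW.trans h4) (zpowers_le.2 h3.aes.mem))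
    (mem_sup_right (mem_zpowers _)) (h4 ha) fun e' => by
      obtain ⟨w, hw, c, hc, e'⟩ := (mem_sup_norm (h3.aes.zpowers_le.trans (inf_le_right.trans ((cent_anti (hW.trans h4)).trans
        (cent_le_norm _))))).1 e'
      rcases h3.aes.eq_or hc with rfl | rfl
      · exact h1 (by rwa [← e', mul_one])
      · refine h2 ?_
        rw [← eq_mul_inv_iff_mul_eq, inv_eq_of_mul_eq_one_right (h.sq _ hu), mul_inv_cancel_left] at e'
        rwa [← e']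
  exact ⟨q, mem_iSup_of_mem _ (mem_iSup_of_mem ⟨hu, e⟩ q1), cent_anti le_sup_left q2, by rw [q3, mul_inv_cancel_left]⟩

theorem aut (h : Sing U) (φ : U ≃* U) : ∃ g ∈ ⨆ u ∈ (U : Set G) \ {1}, QQ u, ∀ u : U, g * u * g⁻¹ = φ u := by
  set L := ⨆ u ∈ (U : Set G) \ {1}, QQ u
  obtain ⟨W, ⟨g, hg, h1⟩, hmax⟩ := (wellFounded_gt (α := Subgroup U)).has_min
    {W | ∃ g ∈ L, ∀ u ∈ W, g * u * g⁻¹ = (φ u : G)} ⟨⊥, 1, one_mem _, by simp⟩
  by_cases e : W = ⊤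
  · exact ⟨g, hg, fun u => h1 u (e ▸ mem_top u)⟩
  obtain ⟨a, -, ha⟩ := SetLike.not_le_iff_exists.1 (fun e' => e (top_le_iff.1 e'))
  have hn := h.norm hg
  obtain ⟨k, k1, k2, k3⟩ := h.step (W := (W.map φ.toMonoidHom).map U.subtype) (map_subtype_le _) (conj_mem_of_norm hn a.2)
    (φ a).2 (by
      rintro ⟨_, ⟨w, hw, rfl⟩, e⟩
      exact ha ((Subtype.ext ((MulAut.conj g).injective ((h1 w hw).trans e)) : w = a) ▸ hw)) (by
      rintro ⟨_, ⟨w, hw, rfl⟩, e⟩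
      exact ha (φ.injective (Subtype.ext e) ▸ hw))
  refine absurd (left_lt_sup.2 fun e => ha (zpowers_le.1 e)) (hmax (W ⊔ zpowers a) ⟨k * g, mul_mem k1 hg, ?_⟩)
  refine fun u hu => (sup_le (c := MonoidHom.eqLocus ((MulAut.conj (k * g)).toMonoidHom.comp U.subtype)
    (U.subtype.comp φ.toMonoidHom)) (fun w hw => ?_) (zpowers_le.2 ?_) hu :)
  · show k * g * w * (k * g)⁻¹ = φ w
    rw [show k * g * w * (k * g)⁻¹ = k * (g * w * g⁻¹) * k⁻¹ by group, h1 w hw,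
      ← mem_cent.1 k2 (φ w) ⟨_, ⟨w, hw, rfl⟩, rfl⟩, mul_inv_cancel_right]
  · show k * g * a * (k * g)⁻¹ = φ a
    rw [← k3]; group

theorem inter (h : Sing U) (ha : a ∈ U) (hb : b ∈ U) (h1 : a = 1 ∨ x ∈ QQ a) (h2 : b = 1 ∨ x ∈ QQ b) :
    a * b = 1 ∨ x ∈ QQ (a * b) := by
  by_cases e1 : a = 1
  · simpa [e1] using h2
  by_cases e2 : b = 1
  · simpa [e2] using h1
  by_cases e3 : a = b
  · exact Or.inl (e3 ▸ h.sq a ha)
  have h3 := h.es b hb e2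
  obtain ⟨q, q1, q2⟩ := h3.lx.exists_conj (h.le b hb e2 ha) (h.sq a ha) fun e => (h3.aes.eq_or e).elim e1 e3
  rw [← q2, QQ_cj, mem_cj]
  right
  rw [show q⁻¹ * x * q = ⁅q⁻¹, x⁆ * x by simp [commutatorElement_def]]
  exact mul_mem (h.le a ha e1 (zpowers_le.2 hb (h3.aes.comm _ (inv_mem q1) _ (h2.resolve_left e2)))) (h1.resolve_left e1)

end Sing

end H03
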