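import Mathlib

/-! Laws in `SL₂(F)` and alternating groups: a non-trivial word is not a central law in
`SL₂(F)` for `F` large (ping-pong on leading coefficients), nor in `A_n` for `n` large. -/

namespace H03
namespace Law
open Polynomial

/-- `w` takes only central values on `X`. -/
def CL (w : FreeGroup ℕ) (X : Type*) [Group X] : Prop :=
  ∀ f : ℕ → X, FreeGroup.lift f w ∈ Subgroup.center X

theorem map_lift {X Y : Type*} [Group X] [Group Y] (φ : X →* Y) (f : ℕ → X) (w : FreeGroup ℕ) :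
    φ (FreeGroup.lift f w) = FreeGroup.lift (φ ∘ f) w := by
  have : φ.comp (FreeGroup.lift f) = FreeGroup.lift (φ ∘ f) := by ext; simp
  exact DFunLike.congr_fun this w

theorem CL.of_inj {w : FreeGroup ℕ} {X Y : Type*} [Group X] [Group Y] (h : CL w Y) (φ : X →* Y)
    (hφ : Function.Injective φ) : CL w X := fun f => by
  rw [Subgroup.mem_center_iff]
  intro g
  apply hφ
  rw [map_mul, map_mul, map_lift]
  exact Subgroup.mem_center_iff.1 (h _) _

theorem CL.of_quot {w : FreeGroup ℕ} {G X : Type*} [Group X] [Group G]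
    (e : G ≃* X ⧸ Subgroup.center X) (h : ∀ f : ℕ → G, FreeGroup.lift f w = 1) : CL w X := fun f => by
  rw [← QuotientGroup.eq_one_iff]
  change QuotientGroup.mk' _ _ = 1
  apply e.symm.injective
  rw [map_one, map_lift]
  exact (map_lift e.symm.toMonoidHom _ w).trans (h _)

theorem CL.of_law {w : FreeGroup ℕ} {G X : Type*} [Group X] [Group G]
    (e : G ≃* X) (h : ∀ f : ℕ → G, FreeGroup.lift f w = 1) : CL w X :=
  CL.of_inj (Y := G) (fun f => by rw [h]; exact one_mem _) e.symm.toMonoidHom e.symm.injective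

variable {F : Type*} [Field F]

/-- The hyperbolic element with attracting point `a` and repelling point `b`. -/
def hyp0 {a b : F} (h : a ≠ b) (t : F) : Matrix.SpecialLinearGroup (Fin 2) F :=
  ⟨!![(a - b)⁻¹ * (-b * t + a + b), (a - b)⁻¹ * (t - 2);
      (a - b)⁻¹ * (-(a * b) * t + a ^ 2 + b ^ 2), (a - b)⁻¹ * (a * t - a - b)], by
    have : a - b ≠ 0 := sub_ne_zero.2 h
    rw [Matrix.det_fin_two_of]; field_simp; ring⟩

open Classical in
/-- total version of `hyp0` -/
noncomputable def hyp (a b t : F) : Matrix.SpecialLinearGroup (Fin 2) F :=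
  if h : a = b then 1 else hyp0 h t

theorem hyp_coe {a b : F} (h : a ≠ b) (t : F) : (hyp a b t : Matrix (Fin 2) (Fin 2) F) =
    !![(a - b)⁻¹ * (-b * t + a + b), (a - b)⁻¹ * (t - 2);
      (a - b)⁻¹ * (-(a * b) * t + a ^ 2 + b ^ 2), (a - b)⁻¹ * (a * t - a - b)] := by
  rw [hyp, dif_neg h]; rfl

theorem hyp_inv (a b t : F) : (hyp a b t)⁻¹ = hyp b a t := by
  by_cases h : a = b
  · simp [h, hyp]
  · have h1 : a - b ≠ 0 := sub_ne_zero.2 h
    have h2 : b - a ≠ 0 := sub_ne_zero.2 (Ne.symm h)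
    refine inv_eq_of_mul_eq_one_right (Subtype.ext ?_)
    rw [Matrix.SpecialLinearGroup.coe_mul, hyp_coe h, hyp_coe (Ne.symm h)]
    ext i j
    fin_cases i <;> fin_cases j <;> simp [Matrix.mul_apply, Fin.sum_univ_two] <;> field_simp <;> ring

/-- second column of the word matrix, as polynomials in `t` -/
noncomputable def pq (u : ℕ × Bool → F) : List (ℕ × Bool) → F[X] × F[X]
  | [] => (0, 1)
  | x :: L =>
    let a := u x
    let b := u (x.1, !x.2)
    (C (a - b)⁻¹ * ((-C b * X + C a + C b) * (pq u L).1 + (X - 2) * (pq u L).2),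
     C (a - b)⁻¹ * ((-C (a * b) * X + C (a ^ 2) + C (b ^ 2)) * (pq u L).1 +
      (C a * X - C a - C b) * (pq u L).2))

theorem pq_eval (u : ℕ × Bool → F) (t : F) (L : List (ℕ × Bool))
    (hu : ∀ x ∈ L, u x ≠ u (x.1, !x.2)) :
    (FreeGroup.lift (fun i => hyp (u (i, true)) (u (i, false)) t) (FreeGroup.mk L)) 0 1 =
        (pq u L).1.eval t ∧
      (FreeGroup.lift (fun i => hyp (u (i, true)) (u (i, false)) t) (FreeGroup.mk L)) 1 1 =
        (pq u L).2.eval t := by
  induction L with
  | nil => simp [pq, FreeGroup.lift_mk]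
  | cons x L ih =>
    obtain ⟨h1, h2⟩ := ih fun y hy => hu y (List.mem_cons_of_mem _ hy)
    have hx := hu x List.mem_cons_self
    rw [FreeGroup.lift_mk] at h1 h2 ⊢
    have e : (cond x.2 (hyp (u (x.1, true)) (u (x.1, false)) t)
        (hyp (u (x.1, true)) (u (x.1, false)) t)⁻¹) = hyp (u x) (u (x.1, !x.2)) t := by
      obtain ⟨i, _ | _⟩ := x <;> simp [hyp_inv]
    rw [List.map_cons, List.prod_cons, e]
    simp only [Matrix.SpecialLinearGroup.coe_mul, Matrix.mul_apply, Fin.sum_univ_two, h1, h2, pq,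
      hyp_coe hx]
    constructor <;> simp <;> ring

theorem pq_deg (u : ℕ × Bool → F) (L : List (ℕ × Bool)) (hL : FreeGroup.IsReduced L)
    (hu : ∀ x ∈ L, ∀ y ∈ L, u (x.1, !x.2) = u y → (x.1, !x.2) = y) :
    (pq u L).1.natDegree ≤ L.length ∧ (pq u L).2.natDegree ≤ L.length ∧
      ((L = [] ∧ (pq u L).1.coeff 0 = 0 ∧ (pq u L).2.coeff 0 = 1) ∨
        ∃ x ∈ L.head?, (pq u L).1.coeff L.length ≠ 0 ∧
          (pq u L).2.coeff L.length = u x * (pq u L).1.coeff L.length) := by
  induction L with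
  | nil => simp [pq]
  | cons x L ih =>
    have hL' : FreeGroup.IsReduced L := hL.infix ⟨[x], [], by simp⟩
    obtain ⟨d1, d2, h3⟩ := ih hL' fun a ha b hb =>
      hu a (List.mem_cons_of_mem _ ha) b (List.mem_cons_of_mem _ hb)
    have hab : u x - u (x.1, !x.2) ≠ 0 := by
      intro h
      have := hu x List.mem_cons_self x List.mem_cons_self (sub_eq_zero.1 h).symm
      obtain ⟨i, _ | _⟩ := x <;> simp at this
    set p := (pq u L).1
    set q := (pq u L).2
    set a := u x
    set b := u (x.1, !x.2)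
    set n := L.length
    have z1 : p.coeff (n + 1) = 0 := coeff_eq_zero_of_natDegree_lt (by omega)
    have z2 : q.coeff (n + 1) = 0 := coeff_eq_zero_of_natDegree_lt (by omega)
    have e1 : (pq u (x :: L)).1 = C (a - b)⁻¹ * (X * (q - C b * p) + ((C a + C b) * p - C 2 * q)) := by
      simp only [pq, map_ofNat]; ring
    have e2 : (pq u (x :: L)).2 = C (a - b)⁻¹ * (X * (C a * (q - C b * p)) +
        ((C (a ^ 2) + C (b ^ 2)) * p - (C a + C b) * q)) := by
      simp only [pq, map_mul]; ring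
    have c1 : (pq u (x :: L)).1.coeff (n + 1) = (a - b)⁻¹ * (q.coeff n - b * p.coeff n) := by
      rw [e1]; simp only [coeff_C_mul, coeff_add, coeff_sub, coeff_X_mul, ← C_add, z1, z2]; ring
    have c2 : (pq u (x :: L)).2.coeff (n + 1) = a * ((a - b)⁻¹ * (q.coeff n - b * p.coeff n)) := by
      rw [e2]; simp only [coeff_C_mul, coeff_add, coeff_sub, coeff_X_mul, ← C_add, z1, z2]; ring
    refine ⟨?_, ?_, Or.inr ⟨x, rfl, ?_, ?_⟩⟩
    · rw [e1, List.length_cons]; compute_degree!; omega
    · rw [e2, List.length_cons]; compute_degree!; omega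
    · rw [List.length_cons, c1]
      refine mul_ne_zero (inv_ne_zero hab) ?_
      rcases h3 with ⟨rfl, h4, h5⟩ | ⟨y, hy, h4, h5⟩
      · simp only [n, List.length_nil, h4, h5]; simp
      · rw [h5, ← sub_mul]
        refine mul_ne_zero (sub_ne_zero.2 fun h => ?_) h4
        obtain ⟨L', rfl⟩ : ∃ L', L = y :: L' := by
          cases L with
          | nil => simp at hy
          | cons z L' => simp at hy; exact ⟨L', by rw [hy]⟩
        have := hu x List.mem_cons_self y (by simp) h.symm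
        have h6 := (FreeGroup.isReduced_cons_cons.1 hL).1 (by rw [← this])
        rw [← this] at h6
        simp at h6
    · rw [List.length_cons, c1, c2]

theorem exists_bound_field (w : FreeGroup ℕ) (hw : w ≠ 1) :
    ∃ Q : ℕ, ∀ (F : Type) [Field F] [Fintype F],
      CL w (Matrix.SpecialLinearGroup (Fin 2) F) → Fintype.card F ≤ Q := by
  obtain ⟨K, hK⟩ : ∃ K, ∀ x ∈ w.toWord, x.1 < K := by
    refine ⟨(w.toWord.map Prod.fst).sum + 1, fun x hx => Nat.lt_succ_of_le ?_⟩
    exact List.single_le_sum (fun _ _ => Nat.zero_le _) _ (List.mem_map_of_mem hx)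
  refine ⟨2 * K + w.toWord.length, fun F _ _ h => ?_⟩
  by_contra hlt
  push Not at hlt
  let e : ℕ → F := fun n => if h : n < Fintype.card F then (Fintype.equivFin F).symm ⟨n, h⟩ else 0
  let u : ℕ × Bool → F := fun x => e (2 * x.1 + x.2.toNat)
  have hu : ∀ x y : ℕ × Bool, x.1 < K → y.1 < K → u x = u y → x = y := by
    rintro ⟨i, b⟩ ⟨j, c⟩ hi hj hxy
    have hb := Bool.toNat_le b
    have hc := Bool.toNat_le c
    simp only [u, e] at hxy hi hj
    rw [dif_pos (by omega), dif_pos (by omega)] at hxy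
    have := congrArg Fin.val ((Fintype.equivFin F).symm.injective hxy)
    simp only at this
    cases b <;> cases c <;> simp at this ⊢ <;> omega
  obtain ⟨d1, -, h3⟩ := pq_deg u w.toWord FreeGroup.isReduced_toWord
    fun x hx y hy => hu _ _ (hK x hx) (hK y hy)
  rcases h3 with ⟨h4, -⟩ | ⟨x, -, h4, -⟩
  · exact hw (FreeGroup.toWord_eq_nil_iff.1 h4)
  apply h4
  have : (pq u w.toWord).1 = 0 := by
    apply Polynomial.eq_zero_of_natDegree_lt_card_of_eval_eq_zero _ Function.injective_id
      (fun t => ?_) (by omega)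
    have := (pq_eval u t w.toWord fun x hx h => by
      have := hu _ _ (hK x hx) (show (x.1, !x.2).1 < K from hK x hx) h
      obtain ⟨i, _ | _⟩ := x <;> simp at this).1
    rw [id, ← this, FreeGroup.mk_toWord]
    obtain ⟨r, -, hr⟩ := Matrix.SpecialLinearGroup.mem_center_iff.1 (h _)
    change (_ : Matrix.SpecialLinearGroup (Fin 2) F).1 0 1 = 0
    rw [← hr]; simp
  rw [this, coeff_zero]

theorem exists_bound_alt (w : FreeGroup ℕ) (hw : w ≠ 1) :
    ∃ M : ℕ, ∀ n : ℕ, CL w (alternatingGroup (Fin n)) → n ≤ M := by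
  classical
  obtain ⟨Q, hQ⟩ := exists_bound_field w hw
  obtain ⟨p, hp, hpp⟩ := Nat.exists_infinite_primes (Q + 1)
  have : Fact p.Prime := ⟨hpp⟩
  set X := Matrix.SpecialLinearGroup (Fin 2) (ZMod p)
  refine ⟨Fintype.card (X ⊕ X), fun n h => ?_⟩
  by_contra hlt
  obtain ⟨ι⟩ : Nonempty (X ⊕ X ↪ Fin n) :=
    Function.Embedding.nonempty_of_card_le (by rw [Fintype.card_fin]; omega)
  let ρ : X →* Equiv.Perm X := MulAction.toPermHom X X
  let φ : X →* Equiv.Perm (Fin n) := (Equiv.Perm.viaEmbeddingHom ι).comp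
    ((Equiv.Perm.sumCongrHom X X).comp (ρ.prod ρ))
  have hφ : Function.Injective φ :=
    (Equiv.Perm.viaEmbeddingHom_injective ι).comp (Equiv.Perm.sumCongrHom_injective.comp
      fun x y hxy => MulAction.toPerm_injective (congrArg Prod.fst hxy))
  have hs : ∀ x, φ x ∈ alternatingGroup (Fin n) := fun x => by
    rw [Equiv.Perm.mem_alternatingGroup]
    change Equiv.Perm.sign (Equiv.Perm.viaEmbedding (Equiv.Perm.sumCongr (ρ x) (ρ x)) ι) = 1
    rw [Equiv.Perm.viaEmbedding, Equiv.Perm.sign_extendDomain, Equiv.Perm.sign_sumCongr,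
      Int.units_mul_self]
  have := hQ (ZMod p) (h.of_inj (φ.codRestrict _ hs) fun x y hxy => hφ (congrArg Subtype.val hxy))
  rw [ZMod.card] at this
  omega

end Law
end H03
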