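import Mathlib
import Cfsg.Prelude.Def_Classical
import Cfsg.Agent.H03.Law1
import Cfsg.Agent.H09.SpStab
import Cfsg.Agent.S0248
import Cfsg.Agent.S0281

/-! Embeddings of `SL₂`, `A_n`, `SL_m` into the classical groups, and bounds for central laws. -/

namespace H03
namespace Law
open Matrix Cfsg

variable {F : Type*} [Field F]

/-- `A ↦ diag(A, 1)` as matrices. -/
def blkL (m n : Type) [Fintype m] [DecidableEq m] [Fintype n] [DecidableEq n] :
    Matrix m m F →* Matrix (m ⊕ n) (m ⊕ n) F where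
  toFun A := fromBlocks A 0 0 1
  map_one' := fromBlocks_one
  map_mul' A B := by simp [fromBlocks_multiply]

/-- `A ↦ diag(1, A)` as matrices. -/
def blkR (m n : Type) [Fintype m] [DecidableEq m] [Fintype n] [DecidableEq n] :
    Matrix n n F →* Matrix (m ⊕ n) (m ⊕ n) F where
  toFun A := fromBlocks 1 0 0 A
  map_one' := fromBlocks_one
  map_mul' A B := by simp [fromBlocks_multiply]

/-- `SL₂ → SL_{2+k}`. -/
def slUp (k : ℕ) : SpecialLinearGroup (Fin 2) F →* SpecialLinearGroup (Fin (2 + k)) F where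
  toFun A := ⟨reindex finSumFinEquiv finSumFinEquiv (fromBlocks A.1 0 0 (1 : Matrix (Fin k) (Fin k) F)),
    by rw [det_reindex_self, det_fromBlocks_zero₂₁, A.2, det_one, one_mul]⟩
  map_one' := Subtype.ext (by simp [fromBlocks_one])
  map_mul' A B := Subtype.ext (by
    change _ = reindex _ _ _ * reindex _ _ _
    simp [submatrix_mul_equiv, fromBlocks_multiply])

theorem slUp_inj (k : ℕ) : Function.Injective (slUp (F := F) k) := fun A B h => by
  have := congrArg Subtype.val h
  exact Subtype.ext (fromBlocks_inj.1 ((reindex finSumFinEquiv finSumFinEquiv).injective this)).1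

theorem slUp_mem (k q : ℕ) (A : SpecialLinearGroup (Fin 2) F) (hA : A ∈ SU 2 F q) :
    slUp k A ∈ SU (2 + k) F q := by
  intro u v
  have key : ∀ u : Fin (2 + k) → F, (slToMat (2 + k) F (slUp k A)) *ᵥ u =
      (Sum.elim (A.1 *ᵥ (u ∘ Fin.castAdd k)) (u ∘ Fin.natAdd 2)) ∘ finSumFinEquiv.symm := by
    intro u
    change (reindex finSumFinEquiv finSumFinEquiv (fromBlocks A.1 0 0 1)) *ᵥ u = _
    rw [reindex_apply, submatrix_mulVec_equiv, fromBlocks_mulVec]
    simp only [zero_mulVec, add_zero, zero_add, one_mulVec, Equiv.symm_symm]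
    rfl
  have := hA (u ∘ Fin.castAdd k) (v ∘ Fin.castAdd k)
  rw [key, key]
  unfold hermForm at this ⊢
  rw [Fin.sum_univ_add, Fin.sum_univ_add]
  simp only [Function.comp, finSumFinEquiv_symm_apply_castAdd, finSumFinEquiv_symm_apply_natAdd,
    Sum.elim_inl, Sum.elim_inr]
  congr 1

/-- permutation matrices of even permutations -/
def altSL (n : ℕ) : alternatingGroup (Fin n) →* SpecialLinearGroup (Fin n) F where
  toFun σ := ⟨permMatrixHom σ.1, by
    rw [permMatrixHom_apply, det_permutation, map_inv, Equiv.Perm.mem_alternatingGroup.1 σ.2]; simp⟩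
  map_one' := Subtype.ext (by simp)
  map_mul' A B := Subtype.ext (map_mul permMatrixHom _ _)

theorem altSL_inj (n : ℕ) : Function.Injective (altSL (F := F) n) := by
  rw [injective_iff_map_eq_one]
  intro σ h
  have h1 : (σ.1⁻¹).permMatrix F = 1 := congrArg Subtype.val h
  ext i
  have := congrFun (congrFun h1 (σ.1 i)) i
  simp [Equiv.Perm.permMatrix, PEquiv.toMatrix, one_apply] at this
  simp [this]

theorem altSL_mem (n q : ℕ) (σ : alternatingGroup (Fin n)) : altSL (F := F) n σ ∈ SU n F q := by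
  intro u v
  change hermForm n F q ((σ.1⁻¹).permMatrix F *ᵥ u) ((σ.1⁻¹).permMatrix F *ᵥ v) = _
  rw [permMatrix_mulVec, permMatrix_mulVec]
  exact Equiv.sum_comp σ.1⁻¹ fun i => u i * v i ^ q

/-- Levi embedding into the plus type orthogonal group. -/
def levi (m : ℕ) : GL (Fin m) F →* GL (Fin m ⊕ Fin m) F :=
  ((symplecticGroup (Fin m) F).subtype.comp H09.spLevi).toHomUnits

theorem levi_coe (m : ℕ) (X : GL (Fin m) F) : (levi m X).1 =
    fromBlocks X.1 0 0 (X⁻¹).1ᵀ := rfl

theorem levi_inj (m : ℕ) : Function.Injective (levi (F := F) m) := fun _ _ h =>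
  Units.ext (fromBlocks_inj.1 (congrArg Units.val h)).1

theorem levi_quad (m : ℕ) (X : GL (Fin m) F) (u : Fin m ⊕ Fin m → F) :
    quadFormPlus m F ((levi m X).1 *ᵥ u) = quadFormPlus m F u := by
  rw [levi_coe, fromBlocks_mulVec]
  simp only [zero_mulVec, add_zero, zero_add, quadFormPlus, Sum.elim_inl, Sum.elim_inr]
  change (X.1 *ᵥ _) ⬝ᵥ (_ *ᵥ _) = (u ∘ Sum.inl) ⬝ᵥ (u ∘ Sum.inr)
  rw [dotProduct_mulVec, vecMul_transpose, mulVec_mulVec, Units.inv_mul, one_mulVec]

theorem CL_omega {w : FreeGroup ℕ} {ι : Type} [Fintype ι] [DecidableEq ι] {Q : (ι → F) → F} {m : ℕ}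
    (hm : 3 ≤ m) (φ : GL (Fin m) F →* GL ι F) (hφ : Function.Injective φ)
    (hQ : ∀ X u, Q ((φ X : Matrix ι ι F) *ᵥ u) = Q u) (h : CL w (Omega F Q)) :
    CL w (SpecialLinearGroup (Fin m) F) := by
  let ψ : SpecialLinearGroup (Fin m) F →* isometryGroup F Q :=
    (φ.comp SpecialLinearGroup.toGL).codRestrict _ fun X u _ => hQ _ u
  have hψ : ∀ X, ψ X ∈ Omega F Q := fun X => by
    have : X ∈ commutator (SpecialLinearGroup (Fin m) F) := by
      rw [Cfsg.Agent.S0248.result m hm]; trivial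
    have h2 := Subgroup.mem_map_of_mem ψ this
    rw [commutator_def, Subgroup.map_commutator] at h2
    exact Subgroup.commutator_mono le_top le_top h2
  exact h.of_inj (ψ.codRestrict _ hψ) fun X Y hXY =>
    SpecialLinearGroup.toGL_injective (hφ (congrArg (fun x : Omega F Q => x.1.1) hXY))

theorem card_le_of_inj {X : Type*} {ι : Type} [Fintype ι] [Fintype F] (f : X → Matrix ι ι F)
    (hf : Function.Injective f) {Q D : ℕ} (hQ : Fintype.card F ≤ Q) (hD : Fintype.card ι ≤ D) :
    Nat.card X ≤ Q ^ (D * D) := by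
  classical
  refine (Nat.card_le_card_of_injective f hf).trans ?_
  have : Nat.card (Matrix ι ι F) = Fintype.card F ^ (Fintype.card ι * Fintype.card ι) := by
    rw [Nat.card_eq_fintype_card]
    change Fintype.card (ι → ι → F) = _
    rw [Fintype.card_fun, Fintype.card_fun, pow_mul]
  rw [this]
  exact (Nat.pow_le_pow_left hQ _).trans
    (Nat.pow_le_pow_right (Fintype.card_pos.trans_le hQ) (Nat.mul_le_mul hD hD))

theorem card_quot_le {G X : Type*} [Group G] [Group X] [Finite X] (e : G ≃* X ⧸ Subgroup.center X) :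
    Nat.card G ≤ Nat.card X := by
  rw [Nat.card_congr e.toEquiv]
  exact Nat.card_le_card_of_surjective _ (QuotientGroup.mk'_surjective _)

theorem jones (w : FreeGroup ℕ) (hw : w ≠ 1) :
    ∃ N : ℕ, ∀ (G : Type*) [Group G] [Finite G],
      (Cfsg.IsAlternating G ∨ Cfsg.IsPSL G ∨ Cfsg.IsPSp G ∨ Cfsg.IsPSU G ∨ Cfsg.IsPOmegaOdd G ∨
          Cfsg.IsPOmegaPlus G ∨ Cfsg.IsPOmegaMinus G) →
      (∀ f : ℕ → G, FreeGroup.lift f w = 1) → Nat.card G ≤ N := by
  classical
  obtain ⟨Q, hQ⟩ := exists_bound_field w hw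
  obtain ⟨M, hM⟩ := exists_bound_alt w hw
  have hSL : ∀ (F : Type) [Field F] [Fintype F] (n : ℕ), 2 ≤ n →
      CL w (SpecialLinearGroup (Fin n) F) → Fintype.card F ≤ Q ^ 2 ∧ n ≤ M := by
    intro F _ _ n hn h
    refine ⟨?_, hM n (h.of_inj _ (altSL_inj n))⟩
    obtain ⟨k, rfl⟩ := Nat.exists_eq_add_of_le hn
    exact (hQ F (h.of_inj _ (slUp_inj k))).trans (Nat.le_self_pow two_ne_zero _)
  refine ⟨M.factorial + (Q ^ 2) ^ ((2 * M + 2) * (2 * M + 2)), fun G _ _ hG h => ?_⟩
  rcases hG with ⟨n, -, ⟨e⟩⟩ | hG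
  · refine le_add_right ?_
    rw [Nat.card_congr e.toEquiv]
    refine (Nat.card_le_card_of_injective _ Subtype.val_injective).trans ?_
    rw [Nat.card_perm, Nat.card_fin]
    exact Nat.factorial_le (hM n (CL.of_law e h))
  refine le_add_left ?_
  rcases hG with ⟨F, _, _, n, hn, -, ⟨e⟩⟩ | ⟨F, _, _, n, hn, -, ⟨e⟩⟩ | ⟨F, _, _, n, q, hq, hn, -, ⟨e⟩⟩ |
    ⟨F, _, _, n, hn, -, ⟨e⟩⟩ | ⟨F, _, _, n, hn, ⟨e⟩⟩ | ⟨F, _, _, n, a, b, hn, -, ⟨e⟩⟩
  · obtain ⟨h1, h2⟩ := hSL F n hn (CL.of_quot e h)
    exact (card_quot_le e).trans (card_le_of_inj _ Subtype.val_injective h1 (by simp; omega))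
  · obtain ⟨h1, h2⟩ := hSL F n hn ((CL.of_quot e h).of_inj (H09.spLevi.comp SpecialLinearGroup.toGL)
      (H09.spLevi_injective.comp SpecialLinearGroup.toGL_injective))
    exact (card_quot_le e).trans (card_le_of_inj _ Subtype.val_injective h1 (by simp; omega))
  · have hc := CL.of_quot e h
    have h2 := hM n (hc.of_inj ((altSL n).codRestrict _ (altSL_mem n q))
      fun x y hxy => altSL_inj n (congrArg Subtype.val hxy))
    obtain ⟨k, rfl⟩ := Nat.exists_eq_add_of_le (show 2 ≤ n by omega)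
    have h3 : CL w (SU 2 F q) := hc.of_inj
      (((slUp k).comp (SU 2 F q).subtype).codRestrict _ fun x => slUp_mem k q x.1 x.2)
      fun x y hxy => Subtype.ext (slUp_inj k (congrArg Subtype.val hxy))
    obtain ⟨p, hp⟩ := CharP.exists F
    obtain ⟨r, hpp, hr⟩ := FiniteField.card F p
    have : Fact p.Prime := ⟨hpp⟩
    obtain ⟨s, -, hs⟩ := (Nat.dvd_prime_pow hpp).1 (show q ∣ p ^ (r : ℕ) by
      rw [← hr, hq]; exact Dvd.intro_left q (by ring))
    have hs0 : s ≠ 0 := by
      rintro rfl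
      have := Fintype.one_lt_card (α := F)
      rw [hq, hs] at this; simp at this
    let _ := Fintype.ofFinite (GaloisField p s)
    have hK : Fintype.card (GaloisField p s) = q := by
      rw [← Nat.card_eq_fintype_card, GaloisField.card p s hs0, hs]
    obtain ⟨e2⟩ := Cfsg.Agent.S0281.result hq hK
    have h4 := hQ _ (h3.of_inj e2.symm.toMonoidHom e2.symm.injective)
    rw [hK] at h4
    exact (card_quot_le e).trans (card_le_of_inj (fun x : SU (2 + k) F q => x.1.1)
      (fun x y hxy => Subtype.ext (Subtype.ext hxy)) (hq ▸ Nat.pow_le_pow_left h4 2)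
      (by simp; omega))
  · obtain ⟨h1, h2⟩ := hSL F n (by omega) (CL_omega hn
      ((Units.map (blkR Unit (Fin n ⊕ Fin n))).comp (levi n))
      ((Units.map_injective fun A B hAB => (fromBlocks_inj.1 hAB).2.2.2).comp (levi_inj n))
      (fun X u => by
        have := levi_quad n X (u ∘ Sum.inr)
        change quadFormOdd n F (fromBlocks 1 0 0 (levi n X).1 *ᵥ u) = _
        rw [fromBlocks_mulVec]
        simp only [zero_mulVec, add_zero, zero_add, one_mulVec, quadFormOdd, Sum.elim_inl,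
          Sum.elim_inr]
        exact congrArg (_ + ·) this) (CL.of_quot e h))
    exact (card_quot_le e).trans (card_le_of_inj (fun x : Omega F (quadFormOdd n F) => x.1.1.1)
      (fun x y hxy => Subtype.ext (Subtype.ext (Units.ext hxy))) h1 (by simp; omega))
  · obtain ⟨h1, h2⟩ := hSL F n (by omega) (CL_omega (by omega) (levi n) (levi_inj n) (levi_quad n)
      (CL.of_quot e h))
    exact (card_quot_le e).trans (card_le_of_inj (fun x : Omega F (quadFormPlus n F) => x.1.1.1)
      (fun x y hxy => Subtype.ext (Subtype.ext (Units.ext hxy))) h1 (by simp; omega))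
  · obtain ⟨h1, h2⟩ := hSL F (n - 1) (by omega) (CL_omega (by omega)
      ((Units.map (blkL (Fin (n - 1) ⊕ Fin (n - 1)) (Fin 2))).comp (levi (n - 1)))
      ((Units.map_injective fun A B hAB => (fromBlocks_inj.1 hAB).1).comp (levi_inj _))
      (fun X u => by
        have := levi_quad (n - 1) X (u ∘ Sum.inl)
        change quadFormMinus (n - 1) F a b (fromBlocks (levi (n - 1) X).1 0 0 1 *ᵥ u) = _
        rw [fromBlocks_mulVec]
        simp only [zero_mulVec, add_zero, zero_add, one_mulVec, quadFormMinus, Sum.elim_inl,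
          Sum.elim_inr]
        exact congrArg (· + _) this) (CL.of_quot e h))
    exact (card_quot_le e).trans (card_le_of_inj
      (fun x : Omega F (quadFormMinus (n - 1) F a b) => x.1.1.1)
      (fun x y hxy => Subtype.ext (Subtype.ext (Units.ext hxy))) h1 (by simp; omega))

end Law
end H03
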