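import Mathlib
import Cfsg.Agent.H19.WrLin
import Cfsg.Agent.H10.Refl
import Cfsg.Agent.L.GL2
import Cfsg.Prelude.Def_Transfer

/-!
# Normal 2-rank of Sylow 2-subgroups of wreath type

* `H03.NRk.NR k S` : the normal 2-rank of `S` is `k`; `wr_nr` for `(D ≀ T) × E`
* `nr_sp`, `nr_gl_one`, `nr_gl_three`
-/

namespace H03.NRk

open Module H19 Cfsg

/-- normal 2-rank `k` -/
def NR (k : ℕ) (S : Type*) [Group S] : Prop :=
  (∃ E : Subgroup S, E.Normal ∧ IsElementaryAbelian 2 E ∧ 2 ^ k ≤ Nat.card E) ∧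
    ∀ E : Subgroup S, E.Normal → IsElementaryAbelian 2 E → Nat.card E ≤ 2 ^ k

theorem elem_map {A B : Type*} [Group A] [Group B] (f : A →* B) {E : Subgroup A}
    (h : IsElementaryAbelian 2 E) : IsElementaryAbelian 2 (E.map f) := by
  have := h.1
  refine ⟨inferInstance, ?_⟩
  rintro _ ⟨a, ha, rfl⟩
  rw [← map_pow, h.2 a ha, map_one]

theorem NR.of_equiv {A B : Type*} [Group A] [Group B] (e : A ≃* B) {k : ℕ} (h : NR k A) : NR k B := by
  obtain ⟨⟨E, h1, h2, h3⟩, h4⟩ := h
  refine ⟨⟨E.map (e : A →* B), h1.map _ e.surjective, elem_map _ h2, ?_⟩, fun E h1 h2 => ?_⟩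
  · rwa [Subgroup.card_map_of_injective e.injective]
  · have := h4 (E.map (e.symm : B →* A)) (h1.map _ e.symm.surjective) (elem_map _ h2)
    rwa [Subgroup.card_map_of_injective e.symm.injective] at this

theorem nr_sylow {G H : Type*} [Group G] [Group H] [Finite G] (e : G ≃* H) {k : ℕ} (S : Subgroup G)
    (hS : Nat.card S = 2 ^ (Nat.card G).factorization 2) (h : NR k S) (Q : Sylow 2 H) :
    NR k (Q : Subgroup H) := by
  have : Finite H := Finite.of_equiv _ e.toEquiv
  have h1 : NR k (S.map (e : G →* H)) := h.of_equiv (Subgroup.equivMapOfInjective S _ e.injective)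
  have h2 : Nat.card (S.map (e : G →* H)) = 2 ^ (Nat.card H).factorization 2 := by
    rw [Subgroup.card_map_of_injective e.injective, hS, Nat.card_congr e.toEquiv]
  exact h1.of_equiv (Sylow.equiv (Sylow.ofCard _ h2) Q)

/-- hypotheses on the base group -/
structure Good (D : Type*) [Group D] (z : D) : Prop where
  ne : z ≠ 1
  sq : z * z = 1
  cen : ∀ d, d * z = z * d
  big : ∃ d : D, d * d ≠ 1
  nrm : ∀ x : D, x * x = 1 → (∀ g, x * (g * x * g⁻¹) = (g * x * g⁻¹) * x) → x = 1 ∨ x = z

section wr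
variable {ι κ D G : Type*} [Group D] [Group G] (w : Wr ι D (κ → ℤˣ) G)

theorem inj2 {f f' : ι → D} {e e' : κ → ℤˣ} (h : w.β f * w.η e = w.β f' * w.η e') : f = f' ∧ e = e' := by
  have : w.β (f'⁻¹ * f) * w.η (e * e'⁻¹) * w.τ 1 = 1 := by
    rw [map_one, mul_one, map_mul, map_mul, map_inv, map_inv]
    calc _ = (w.β f')⁻¹ * (w.β f * w.η e) * (w.η e')⁻¹ := by group
      _ = 1 := by rw [h]; group
  obtain ⟨h1, h2, -⟩ := w.inj _ _ _ this
  exact ⟨(inv_mul_eq_one.1 h1).symm, mul_inv_eq_one.1 h2⟩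

theorem βη_mul (f f' : ι → D) (e e' : κ → ℤˣ) :
    w.β f * w.η e * (w.β f' * w.η e') = w.β (f * f') * w.η (e * e') := by
  rw [map_mul, map_mul, mul_assoc, ← mul_assoc (w.η e), w.ηβ]; group

theorem wr_nr [Finite ι] [Finite κ] (T : Subgroup (Equiv.Perm ι)) {z : D} (hD : Good D z) :
    NR (Nat.card ι + Nat.card κ) (w.S T) := by
  classical
  obtain ⟨ζ, hζ⟩ := H10.exists_hom_int_units hD.sq
  have hζc : ∀ a d, d * ζ a = ζ a * d := fun a d => by
    rcases Int.units_eq_one_or a with h | h
    · simp [h]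
    · rw [h, hζ, hD.cen]
  let ρ : (ι → ℤˣ) × (κ → ℤˣ) →* G := MonoidHom.mk' (fun p => w.β (fun i => ζ (p.1 i)) * w.η p.2)
    fun p q => by
      rw [βη_mul]; congr 2; funext i; simp
  have hρ : ∀ p, ρ p = w.β (fun i => ζ (p.1 i)) * w.η p.2 := fun _ => rfl
  have hinj : Function.Injective ρ := by
    intro p q h
    obtain ⟨h1, h2⟩ := inj2 w h
    refine Prod.ext (funext fun i => ?_) h2
    have h3 : ζ (p.1 i) = ζ (q.1 i) := congrFun h1 i
    have hne := hD.ne
    rcases Int.units_eq_one_or (p.1 i) with h | h <;> rcases Int.units_eq_one_or (q.1 i) with h' | h' <;>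
      rw [h, h'] at h3 ⊢
    · rw [hζ, map_one] at h3; exact absurd h3.symm hne
    · rw [hζ, map_one] at h3; exact absurd h3 hne
  have hle : ρ.range ≤ w.S T := by
    rintro _ ⟨p, rfl⟩
    exact mul_mem (w.β_mem _ _) (w.η_mem _ _)
  have hcard : Nat.card (ρ.range.subgroupOf (w.S T)) = 2 ^ (Nat.card ι + Nat.card κ) := by
    rw [Nat.card_congr (Subgroup.subgroupOfEquivOfLe hle).toEquiv,
      ← Nat.card_congr (MonoidHom.ofInjective hinj).toEquiv, Nat.card_prod, Nat.card_fun, Nat.card_fun,
      pow_add]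
    simp
  constructor
  · refine ⟨ρ.range.subgroupOf (w.S T), ⟨?_⟩, ⟨⟨⟨?_⟩⟩, ?_⟩, hcard.ge⟩
    · rintro ⟨x, hx⟩ ⟨p, hp⟩ ⟨_, f, e, σ, hσ, rfl⟩
      refine ⟨(fun i => p.1 (σ⁻¹ i), p.2), ?_⟩
      have hp' : x = ρ p := hp.symm
      change _ = w.β f * w.η e * w.τ σ * x * (w.β f * w.η e * w.τ σ)⁻¹
      rw [hp', eq_mul_inv_iff_mul_eq, hρ, hρ]
      have e1 := w.mul_eq f (fun i => ζ (p.1 i)) e p.2 σ 1
      have e2 := w.mul_eq (fun i => ζ (p.1 (σ⁻¹ i))) f p.2 e 1 σ
      simp only [map_one, mul_one, one_mul, inv_one, Equiv.Perm.coe_one, id] at e1 e2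
      rw [e1, e2, mul_comm e]
      congr 3
      funext i
      exact (hζc _ _).symm
    · rintro ⟨⟨x, hx⟩, p, hp⟩ ⟨⟨y, hy⟩, q, hq⟩
      refine Subtype.ext (Subtype.ext ?_)
      have hp' : x = ρ p := hp.symm
      have hq' : y = ρ q := hq.symm
      change x * y = y * x
      rw [hp', hq', ← map_mul, ← map_mul, mul_comm]
    · rintro ⟨x, hx⟩ ⟨p, hp⟩
      refine Subtype.ext ?_
      have hp' : x = ρ p := hp.symm
      change x ^ 2 = 1
      rw [hp', ← map_pow]
      have : p ^ 2 = 1 := Prod.ext (funext fun i => Int.units_sq _) (funext fun i => Int.units_sq _)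
      rw [this, map_one]
  · intro E hn hE
    have hfin : Finite (ρ.range.subgroupOf (w.S T)) := Nat.finite_of_card_ne_zero (by rw [hcard]; positivity)
    rw [← hcard]
    refine Subgroup.card_le_of_le ?_
    rintro ⟨_, f, e, σ, hσ, rfl⟩ hx
    have := hE.1
    have hσ1 : σ = 1 := by
      by_contra hne
      obtain ⟨i, hi⟩ : ∃ i, σ i ≠ i := by
        by_contra h; push Not at h; exact hne (Equiv.ext h)
      obtain ⟨d, hd⟩ := hD.big
      let y : w.S T := ⟨w.β (Pi.mulSingle i d), w.β_mem _ _⟩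
      have h1 := hE.2 _ (E.mul_mem hx (hn.conj_mem _ (E.inv_mem hx) y))
      have h2 := congrArg Subtype.val h1
      change (w.β f * w.η e * w.τ σ * (w.β (Pi.mulSingle i d) * (w.β f * w.η e * w.τ σ)⁻¹ *
        (w.β (Pi.mulSingle i d))⁻¹)) ^ 2 = 1 at h2
      have h3 : w.β f * w.η e * w.τ σ * (w.β (Pi.mulSingle i d) * (w.β f * w.η e * w.τ σ)⁻¹ *
          (w.β (Pi.mulSingle i d))⁻¹) =
          w.β (f * Pi.mulSingle (σ i) d * f⁻¹ * (Pi.mulSingle i d)⁻¹) := by
        rw [map_mul, map_mul, map_mul, map_inv, map_inv, ← w.τ_single σ i d]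
        have h4 := w.ηβ e (Pi.mulSingle (σ i) d)
        rw [← w.τ_single σ i d] at h4
        calc _ = w.β f * (w.η e * (w.τ σ * w.β (Pi.mulSingle i d) * (w.τ σ)⁻¹)) * (w.η e)⁻¹ * (w.β f)⁻¹ *
            (w.β (Pi.mulSingle i d))⁻¹ := by group
          _ = _ := by rw [h4]; group
      rw [h3, ← map_pow] at h2
      have h5 := (w.inj ((f * Pi.mulSingle (σ i) d * f⁻¹ * (Pi.mulSingle i d)⁻¹) ^ 2) 1 1 (by rw [h2]; simp)).1
      have h6 := congrFun h5 i
      simp only [Pi.pow_apply, Pi.mul_apply, Pi.inv_apply, Pi.mulSingle_eq_same,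
        Pi.mulSingle_eq_of_ne hi.symm, mul_one, mul_inv_cancel, one_mul, Pi.one_apply, inv_pow,
        inv_eq_one] at h6
      exact hd (by rw [← sq, h6])
    subst hσ1
    have hf : ∀ i, f i = 1 ∨ f i = z := by
      intro i
      have h2 := congrArg Subtype.val (hE.2 _ hx)
      change (w.β f * w.η e * w.τ 1) ^ 2 = 1 at h2
      rw [map_one, mul_one, sq, βη_mul] at h2
      have h3 := (w.inj (f * f) (e * e) 1 (by rw [map_one, mul_one]; exact h2)).1
      refine hD.nrm _ (congrFun h3 i) fun g => ?_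
      let y : w.S T := ⟨w.β (fun _ => g), w.β_mem _ _⟩
      have h4 := congrArg Subtype.val (setLike_mul_comm hx (hn.conj_mem _ hx y))
      change w.β f * w.η e * w.τ 1 * (w.β (fun _ => g) * (w.β f * w.η e * w.τ 1) * (w.β fun _ => g)⁻¹) =
        w.β (fun _ => g) * (w.β f * w.η e * w.τ 1) * (w.β fun _ => g)⁻¹ * (w.β f * w.η e * w.τ 1) at h4
      have h5 : w.β (fun _ => g) * (w.β f * w.η e * w.τ 1) * (w.β fun _ => g)⁻¹ =
          w.β ((fun _ => g) * f * (fun _ => g)⁻¹) * w.η e := by
        rw [map_one, mul_one, map_mul, map_mul, ← map_inv, mul_assoc, mul_assoc, w.ηβ]; group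
      rw [h5, map_one, mul_one, βη_mul, βη_mul] at h4
      exact congrFun (inj2 w h4).1 i
    refine ⟨(fun i => if f i = 1 then 1 else -1, e), ?_⟩
    change ρ _ = w.β f * w.η e * w.τ 1
    rw [hρ, map_one, mul_one]
    congr 2
    funext i
    by_cases h : f i = 1
    · simp [h]
    · simp only [h, if_false, hζ]; exact ((hf i).resolve_left h).symm

end wr

/-- a group of exponent two whose elements lie in a set of size at most `k` -/
theorem big_of_card {D : Type*} [Group D] [Finite D] {z : D} (h : ∀ x : D, x * x = 1 → x = 1 ∨ x = z)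
    (hc : 2 < Nat.card D) : ∃ d : D, d * d ≠ 1 := by
  classical
  by_contra hne
  push Not at hne
  have := Fintype.ofFinite D
  have h1 : (Finset.univ : Finset D) ⊆ {1, z} := fun x _ => by simpa using h x (hne x)
  have h2 := (Finset.card_le_card h1).trans Finset.card_le_two
  rw [Finset.card_univ, ← Nat.card_eq_fintype_card] at h2
  omega

theorem neg_mem_sylow {G : Type*} [Group G] [Finite G] (D : Sylow 2 G) {z : G} (hz : z * z = 1)
    (hc : ∀ g, g * z = z * g) : z ∈ (D : Subgroup G) := by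
  have hp : IsPGroup 2 (Subgroup.zpowers z) := by
    rintro ⟨_, k, rfl⟩
    refine ⟨1, Subtype.ext ?_⟩
    change (z ^ k) ^ 2 ^ 1 = 1
    rw [pow_one, ← zpow_natCast, ← zpow_mul, mul_comm, zpow_mul, zpow_natCast, sq, hz, one_zpow]
  have hn : (Subgroup.zpowers z).Normal := ⟨by
    rintro _ ⟨k, rfl⟩ g
    have : g * z ^ k * g⁻¹ = z ^ k := by
      rw [mul_inv_eq_iff_eq_mul]; exact ((show Commute g z from hc g).zpow_right k).eq
    rw [this]; exact ⟨k, rfl⟩⟩
  exact hp.le_sylow_of_normal D (Subgroup.mem_zpowers z)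

theorem fact_sq_sub_one {q : ℕ} (hq : Odd q) (h1 : 1 < q) : 3 ≤ (q ^ 2 - 1).factorization 2 := by
  obtain ⟨t, rfl⟩ := hq
  rw [← Nat.prime_two.pow_dvd_iff_le_factorization (pow_sub_one_ne h1 (by omega))]
  obtain ⟨s, hs⟩ := Nat.even_mul_succ_self t
  exact ⟨s, by
    have : (2 * t + 1) ^ 2 = 2 ^ 3 * s + 1 := by nlinarith
    omega⟩

variable {F : Type*} [Field F] [Fintype F]

theorem good_SL2 (hF : Odd (Fintype.card F)) (D : Sylow 2 (Matrix.SpecialLinearGroup (Fin 2) F)) :
    ∃ z, Good (D : Subgroup (Matrix.SpecialLinearGroup (Fin 2) F)) z := by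
  have h2 := H10.two_ne_zero_of_odd_card hF
  have h1 := Fintype.one_lt_card (α := F)
  have hz : (-1 : Matrix.SpecialLinearGroup (Fin 2) F) ∈ (D : Subgroup _) :=
    neg_mem_sylow D (by simp) (by simp)
  have hinv : ∀ x : (D : Subgroup (Matrix.SpecialLinearGroup (Fin 2) F)), x * x = 1 →
      x = 1 ∨ x = ⟨-1, hz⟩ := by
    intro x hx
    have h3 : (x.1 : L.M2 F) * (x.1 : L.M2 F) = 1 := congrArg (fun y => (y.1 : L.M2 F)) hx
    have h4 := L.m2_sq (x.1 : L.M2 F)
    rw [h3, x.1.det_coe, one_smul] at h4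
    have h5 : (x.1 : L.M2 F).trace ≠ 0 := by
      intro h
      rw [h, zero_smul, zero_sub] at h4
      have := congrFun (congrFun h4 0) 0
      simp at this
      exact h2 (by linear_combination this)
    have h6 : (x.1 : L.M2 F) = (2 / (x.1 : L.M2 F).trace) • (1 : L.M2 F) := by
      have : (x.1 : L.M2 F).trace • (x.1 : L.M2 F) = (2 : F) • (1 : L.M2 F) := by
        rw [two_smul]; exact (eq_sub_iff_add_eq.1 h4).symm
      rw [div_eq_inv_mul, mul_smul, ← this, smul_smul, inv_mul_cancel₀ h5, one_smul]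
    set c := 2 / (x.1 : L.M2 F).trace
    rw [h6] at h3
    have h7 : c * c = 1 := by simpa using congrFun (congrFun h3 0) 0
    rcases mul_self_eq_one_iff.1 h7 with h | h
    · left; exact Subtype.ext (Subtype.ext (by rw [h6, h, one_smul]; rfl))
    · right; exact Subtype.ext (Subtype.ext (by rw [h6, h, neg_one_smul]; rfl))
  refine ⟨⟨-1, hz⟩, ?_, Subtype.ext (by simp), fun d => Subtype.ext (by simp), big_of_card hinv ?_,
    fun x hx _ => hinv x hx⟩
  · intro h
    have := congrFun (congrFun (congrArg (fun y => (y.1 : L.M2 F)) h) 0) 0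
    simp at this
    exact h2 (by linear_combination -this)
  · have := fact_sq_sub_one hF h1
    rw [D.card_eq_multiplicity, H09.card_SL_two,
      fact_mul_two (by omega) (pow_sub_one_ne h1 (by omega)), fact_odd hF, zero_add]
    exact lt_of_lt_of_le (by norm_num) (Nat.pow_le_pow_right (by norm_num) this)

theorem nr_sp (hF : Odd (Fintype.card F)) (n : ℕ) (Q : Sylow 2 (Matrix.symplecticGroup (Fin n) F)) :
    NR n (Q : Subgroup (Matrix.symplecticGroup (Fin n) F)) := by
  let φ := H10.Form.ofAlt (altB F n) (altB_alt F n)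
  have := altB_nondeg F n
  have hφ : H09.IsAltF φ := H09.isAltF_ofAlt _ _
  have hn : finrank F ((Fin n → Fin 2 → F) × (Fin 0 → F)) = 2 * n := by
    simp [Module.finrank_pi_fintype, mul_comm]
  obtain ⟨e⟩ := hφ.nonempty_isom_equiv hn
  obtain ⟨D⟩ : Nonempty (Sylow 2 (Matrix.SpecialLinearGroup (Fin 2) F)) := inferInstance
  obtain ⟨T⟩ : Nonempty (Sylow 2 (Equiv.Perm (Fin n))) := inferInstance
  let w := (linWr F (Fin n) (Fin 2 → F) (Fin 0 → F)).restrict
    (Matrix.SpecialLinearGroup.toLin'.comp (D : Subgroup _).subtype)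
    (Matrix.SpecialLinearGroup.toLin'_injective.comp Subtype.coe_injective)
    (1 : (Fin 0 → ℤˣ) →* _) (fun _ _ _ => Subsingleton.elim _ _) φ.Isom
    (fun f => ⟨fun x y => by
      change altB F n _ _ = altB F n _ _
      rw [altB_apply, altB_apply]
      refine Finset.sum_congr rfl fun i _ => ?_
      have h := (f i).1.det_coe
      rw [Matrix.det_fin_two] at h
      simp only [linWr_β, MonoidHom.comp_apply, Subgroup.coe_subtype,
        Matrix.SpecialLinearGroup.toLin'_apply, Matrix.toLin'_apply, Matrix.mulVec, dotProduct,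
        Fin.sum_univ_two]
      linear_combination (x.1 i 0 * y.1 i 1 - x.1 i 1 * y.1 i 0) * h, fun _ => rfl⟩)
    (fun _ => by simp)
    (fun σ => ⟨fun x y => by
      change altB F n _ _ = altB F n _ _
      rw [altB_apply, altB_apply]
      exact Equiv.sum_comp σ⁻¹ fun i => x.1 i 0 * y.1 i 1 - x.1 i 1 * y.1 i 0, fun _ => rfl⟩)
  obtain ⟨z, hz⟩ := good_SL2 hF D
  have h0 := wr_nr w T hz
  have : Finite φ.Isom := Finite.of_equiv _ e.symm.toEquiv
  refine nr_sylow e (w.S T) ?_ (by simpa using h0) Q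
  have h1 := Fintype.one_lt_card (α := F)
  rw [w.card_S, card_sylow_perm, D.card_eq_multiplicity, hφ.card_Isom hn, H09.card_SL_two,
    Nat.card_eq_fintype_card (α := F), fact_mul_two (by omega) (pow_sub_one_ne h1 (by omega)),
    fact_odd hF, fact_mul_two (by positivity) (Finset.prod_ne_zero_iff.2 fun i _ =>
      pow_sub_one_ne h1 (by omega)), fact_odd hF.pow, fact_sp_prod hF h1]
  simp [pow_add, ← pow_mul, mul_comm]

theorem fact_pow_one {q : ℕ} (hq : q % 4 = 1) (h1 : 1 < q) {i : ℕ} (hi : i ≠ 0) :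
    (q ^ i - 1).factorization 2 = (q - 1).factorization 2 + i.factorization 2 := by
  have hodd : Odd q := by rw [Nat.odd_iff]; omega
  rcases Nat.even_or_odd' i with ⟨k, rfl | rfl⟩
  · have hk : k ≠ 0 := by omega
    rw [fact_even_pow hodd h1 hk, fact_mul_two (by omega) hk, Nat.prime_two.factorization_self]
    have : q ^ 2 - 1 = (q - 1) * (2 * (2 * (q / 4) + 1)) := by
      have e1 : 2 * (2 * (q / 4) + 1) = q + 1 := by omega
      rw [e1, mul_comm, ← Nat.sq_sub_sq, one_pow]
    rw [this, fact_mul_two (by omega) (by omega), fact_mul_two (by omega) (by omega),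
      Nat.prime_two.factorization_self, fact_odd (a := 2 * (q / 4) + 1) (by simp)]
    ring
  · rw [fact_odd_pow hodd h1, fact_odd (a := 2 * k + 1) (by simp), add_zero]

theorem fact_gl_one {q : ℕ} (hq : q % 4 = 1) (h1 : 1 < q) (n : ℕ) :
    ∑ i ∈ Finset.range n, (q ^ (i + 1) - 1).factorization 2 =
      n * (q - 1).factorization 2 + n.factorial.factorization 2 := by
  induction n with
  | zero => simp
  | succ n ih =>
    rw [Finset.sum_range_succ, ih, fact_pow_one hq h1 (by omega), Nat.factorial_succ,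
      fact_mul_two (by omega) (Nat.factorial_ne_zero n)]
    ring

theorem good_units (hq : Fintype.card F % 4 = 1) (D : Sylow 2 Fˣ) : ∃ z, Good (D : Subgroup Fˣ) z := by
  classical
  have hF : Odd (Fintype.card F) := by rw [Nat.odd_iff]; omega
  have h2 := H10.two_ne_zero_of_odd_card hF
  have h1 := Fintype.one_lt_card (α := F)
  have hz : (-1 : Fˣ) ∈ (D : Subgroup _) := neg_mem_sylow D (by simp) (by simp)
  have hinv : ∀ x : (D : Subgroup Fˣ), x * x = 1 → x = 1 ∨ x = ⟨-1, hz⟩ := by
    intro x hx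
    have h3 : ((x.1 : Fˣ) : F) * ((x.1 : Fˣ) : F) = 1 := congrArg (fun y => ((y.1 : Fˣ) : F)) hx
    rcases mul_self_eq_one_iff.1 h3 with h | h
    · left; exact Subtype.ext (Units.ext h)
    · right; exact Subtype.ext (Units.ext h)
  refine ⟨⟨-1, hz⟩, ?_, Subtype.ext (by simp), fun d => mul_comm _ _, big_of_card hinv ?_,
    fun x hx _ => hinv x hx⟩
  · intro h
    have := congrArg (fun y => ((y.1 : Fˣ) : F)) h
    simp at this
    exact h2 (by linear_combination -this)
  · have : 2 ≤ (Fintype.card F - 1).factorization 2 := by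
      rw [← Nat.prime_two.pow_dvd_iff_le_factorization (by omega)]
      omega
    rw [D.card_eq_multiplicity, Nat.card_eq_fintype_card, Fintype.card_units]
    exact lt_of_lt_of_le (by norm_num) (Nat.pow_le_pow_right (by norm_num) this)

theorem nr_gl_one (hq : Fintype.card F % 4 = 1) (n : ℕ) (Q : Sylow 2 (GL (Fin n) F)) :
    NR n (Q : Subgroup (GL (Fin n) F)) := by
  classical
  have hF : Odd (Fintype.card F) := by rw [Nat.odd_iff]; omega
  have h1 := Fintype.one_lt_card (α := F)
  have := finite_linEquiv (F := F) (V := (Fin n → F) × (Fin 0 → F))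
  have hn : finrank F ((Fin n → F) × (Fin 0 → F)) = n := by simp
  obtain ⟨e, -⟩ := exists_gl_equiv hn
  obtain ⟨D⟩ : Nonempty (Sylow 2 Fˣ) := inferInstance
  obtain ⟨T⟩ : Nonempty (Sylow 2 (Equiv.Perm (Fin n))) := inferInstance
  let j : Fˣ →* (F ≃ₗ[F] F) := MonoidHom.mk' (fun a => LinearEquiv.smulOfUnit a)
    fun a b => LinearEquiv.ext fun x => mul_smul a b x
  have hj : Function.Injective j := fun a b h => Units.ext (by
    have : a • (1 : F) = b • (1 : F) := DFunLike.congr_fun h 1
    simpa [Units.smul_def] using this)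
  let w := (linWr F (Fin n) F (Fin 0 → F)).sub (j.comp (D : Subgroup _).subtype)
    (hj.comp Subtype.coe_injective) (1 : (Fin 0 → ℤˣ) →* _) (fun _ _ _ => Subsingleton.elim _ _)
  obtain ⟨z, hz⟩ := good_units hq D
  have h0 := wr_nr w T hz
  refine nr_sylow e.symm (w.S T) ?_ (by simpa using h0) Q
  rw [w.card_S, card_sylow_perm, D.card_eq_multiplicity, fact_card_gl hF hn, fact_gl_one hq h1,
    Nat.card_eq_fintype_card (α := Fˣ), Fintype.card_units]
  simp [pow_add, ← pow_mul, mul_comm]

theorem good_GL2 (hq : Fintype.card F % 4 = 3) (D : Sylow 2 (GL (Fin 2) F)) :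
    ∃ z, Good (D : Subgroup (GL (Fin 2) F)) z := by
  classical
  have hF : Odd (Fintype.card F) := by rw [Nat.odd_iff]; omega
  have h2 := H10.two_ne_zero_of_odd_card hF
  have h1 := Fintype.one_lt_card (α := F)
  have hz : (-1 : GL (Fin 2) F) ∈ (D : Subgroup _) := neg_mem_sylow D (by simp) (by simp)
  have hcard : 16 ≤ Nat.card (D : Subgroup (GL (Fin 2) F)) := by
    have h3 := fact_sq_sub_one hF h1
    have h4 : 1 ≤ (Fintype.card F - 1).factorization 2 := by
      rw [← Nat.prime_two.pow_dvd_iff_le_factorization (by omega)]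
      omega
    rw [D.card_eq_multiplicity, Matrix.card_GL_field, fact_gl_eq hF h1]
    simp only [Finset.sum_range_succ, Finset.sum_range_zero, zero_add, pow_one]
    exact le_trans (by norm_num) (Nat.pow_le_pow_right (by norm_num) (add_le_add h4 h3))
  -- elements of 2-power order in the field
  have hpm : ∀ (c : F) (k : ℕ), c ^ 2 ^ k = 1 → c * c = 1 := by
    intro c k hc
    have hc0 : c ≠ 0 := by rintro rfl; simp at hc
    have a2 := FiniteField.pow_card_sub_one_eq_one c hc0
    obtain ⟨t, ht⟩ : ∃ t, Fintype.card F - 1 = 2 * (2 * t + 1) := ⟨(Fintype.card F - 3) / 4, by omega⟩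
    have b1 := orderOf_dvd_of_pow_eq_one hc
    have b2 := orderOf_dvd_of_pow_eq_one a2
    rw [ht] at b2
    rw [← sq]
    refine orderOf_dvd_iff_pow_eq_one.1 (Nat.Coprime.dvd_of_dvd_mul_right ?_ b2)
    exact Nat.Coprime.coprime_dvd_left b1 (Nat.Coprime.pow_left _ (by simp))
  have hnrm : ∀ x : (D : Subgroup (GL (Fin 2) F)), x * x = 1 →
      (∀ g, x * (g * x * g⁻¹) = (g * x * g⁻¹) * x) → x = 1 ∨ x = ⟨-1, hz⟩ := by
    intro x hx hc
    set X : L.M2 F := ((x.1 : GL (Fin 2) F) : L.M2 F) with hX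
    have h3 : X * X = 1 := congrArg (fun y => ((y.1 : GL (Fin 2) F) : L.M2 F)) hx
    by_cases hs : L.IsScal X
    · obtain ⟨c, h6⟩ := L.isScal_iff.1 hs
      rw [h6] at h3
      have h7 : c * c = 1 := by simpa using congrFun (congrFun h3 0) 0
      rcases mul_self_eq_one_iff.1 h7 with h | h
      · left; exact Subtype.ext (Units.ext (by rw [← hX, h6, h, one_smul]; rfl))
      · right; exact Subtype.ext (Units.ext (by rw [← hX, h6, h, neg_one_smul]; rfl))
    exfalso
    have htr : X.trace = 0 := by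
      have h4 := L.m2_sq X
      rw [h3] at h4
      have : (1 + X.det) • (1 : L.M2 F) + (0 : F) • X = (0 : F) • (1 : L.M2 F) + X.trace • X := by
        rw [zero_smul, zero_smul, add_zero, zero_add, add_smul, one_smul]
        exact eq_sub_iff_add_eq.1 h4
      exact (L.lin_inj hs this).2.symm
    -- the centraliser has at most four elements
    have hlin : ∀ y : (D : Subgroup (GL (Fin 2) F)), y * x = x * y →
        ((y.1 : GL (Fin 2) F) : L.M2 F) ∈ ({1, -1, X, -X} : Finset (L.M2 F)) := by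
      intro y hy
      obtain ⟨a, b, hab⟩ := (L.commute_iff hs ((y.1 : GL (Fin 2) F) : L.M2 F)).1
        (congrArg (fun y => ((y.1 : GL (Fin 2) F) : L.M2 F)) hy)
      obtain ⟨k, hk⟩ := D.isPGroup' y
      have hk' : ((y.1 : GL (Fin 2) F) : L.M2 F) ^ 2 ^ k = 1 := by
        rw [← Units.val_pow_eq_pow_val]
        exact congrArg (fun y => ((y.1 : GL (Fin 2) F) : L.M2 F)) hk
      have hpow : ∀ m : ℕ, (2 : F) • (a • (1 : L.M2 F) + b • X) ^ m =
          ((a + b) ^ m + (a - b) ^ m) • (1 : L.M2 F) + ((a + b) ^ m - (a - b) ^ m) • X := by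
        intro m
        induction m with
        | zero => simp [two_smul, add_smul]
        | succ m ih =>
          rw [pow_succ, ← smul_mul_assoc, ih]
          simp only [add_mul, mul_add, smul_mul_assoc, mul_smul_comm, one_mul, mul_one, h3, pow_succ]
          module
      have h5 := hpow (2 ^ k)
      rw [← hab, hk'] at h5
      have h6 := L.lin_inj hs (a := 2) (b := 0) (c := (a + b) ^ 2 ^ k + (a - b) ^ 2 ^ k)
        (d := (a + b) ^ 2 ^ k - (a - b) ^ 2 ^ k) (by rw [zero_smul, add_zero]; exact h5)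
      have h7 : (a + b) ^ 2 ^ k = 1 := by
        apply mul_left_cancel₀ h2; linear_combination -h6.1 - h6.2
      have h8 : (a - b) ^ 2 ^ k = 1 := by
        apply mul_left_cancel₀ h2; linear_combination -h6.1 + h6.2
      rw [hab]
      simp only [Finset.mem_insert, Finset.mem_singleton]
      rcases mul_self_eq_one_iff.1 (hpm _ _ h7) with e1 | e1 <;>
      rcases mul_self_eq_one_iff.1 (hpm _ _ h8) with e2 | e2
      · have ha : a = 1 := by apply mul_left_cancel₀ h2; linear_combination e1 + e2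
        have hb : b = 0 := by apply mul_left_cancel₀ h2; linear_combination e1 - e2
        simp [ha, hb]
      · have ha : a = 0 := by apply mul_left_cancel₀ h2; linear_combination e1 + e2
        have hb : b = 1 := by apply mul_left_cancel₀ h2; linear_combination e1 - e2
        simp [ha, hb]
      · have ha : a = 0 := by apply mul_left_cancel₀ h2; linear_combination e1 + e2
        have hb : b = -1 := by apply mul_left_cancel₀ h2; linear_combination e1 - e2
        simp [ha, hb]
      · have ha : a = -1 := by apply mul_left_cancel₀ h2; linear_combination e1 + e2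
        have hb : b = 0 := by apply mul_left_cancel₀ h2; linear_combination e1 - e2
        simp [ha, hb]
    let C := MulAction.stabilizer (ConjAct (D : Subgroup (GL (Fin 2) F))) x
    have hC : Nat.card C ≤ 4 := by
      have hm : ∀ c : C, ConjAct.ofConjAct c.1 * x = x * ConjAct.ofConjAct c.1 := fun c => by
        have := c.2
        rw [MulAction.mem_stabilizer_iff, ConjAct.smul_def, mul_inv_eq_iff_eq_mul] at this
        exact this
      have := Nat.card_le_card_of_injective
        (fun c : C => (⟨_, hlin _ (hm c)⟩ : ({1, -1, X, -X} : Finset (L.M2 F)))) fun c c' h =>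
          Subtype.ext (ConjAct.ofConjAct.injective (Subtype.ext (Units.ext (Subtype.mk.inj h))))
      rw [Nat.card_eq_finsetCard] at this
      exact this.trans Finset.card_le_four
    have hO : Nat.card (MulAction.orbit (ConjAct (D : Subgroup (GL (Fin 2) F))) x) ≤ 2 := by
      have hm : ∀ y : MulAction.orbit (ConjAct (D : Subgroup (GL (Fin 2) F))) x,
          ((y.1.1 : GL (Fin 2) F) : L.M2 F) ∈ ({X, -X} : Finset (L.M2 F)) := by
        rintro ⟨_, g, rfl⟩
        have h4 := hlin _ (hc (ConjAct.ofConjAct g)).symm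
        have h5 : (((ConjAct.ofConjAct g * x * (ConjAct.ofConjAct g)⁻¹).1 : GL (Fin 2) F) : L.M2 F).trace = 0 := by
          rw [← htr]
          exact (L.IsConj_GL_trace (isConj_iff.2 ⟨(ConjAct.ofConjAct g).1, rfl⟩)).symm
        simp only [Finset.mem_insert, Finset.mem_singleton] at h4 ⊢
        rcases h4 with h | h | h
        · rw [h] at h5; simp at h5; exact absurd h5 h2
        · rw [h] at h5; simp at h5; exact absurd h5 h2
        · exact h
      have := Nat.card_le_card_of_injective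
        (fun c => (⟨_, hm c⟩ : ({X, -X} : Finset (L.M2 F)))) fun c c' h =>
          Subtype.ext (Subtype.ext (Units.ext (Subtype.mk.inj h)))
      rw [Nat.card_eq_finsetCard] at this
      exact this.trans Finset.card_le_two
    have h9 := Nat.card_congr (MulAction.orbitProdStabilizerEquivGroup
      (ConjAct (D : Subgroup (GL (Fin 2) F))) x)
    rw [Nat.card_prod] at h9
    have h10 : Nat.card (ConjAct (D : Subgroup (GL (Fin 2) F))) = Nat.card (D : Subgroup (GL (Fin 2) F)) := rfl
    have := Nat.mul_le_mul hO hC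
    rw [h9, h10] at this
    omega
  refine ⟨⟨-1, hz⟩, ?_, Subtype.ext (by simp), fun d => Subtype.ext (by simp), ?_, hnrm⟩
  · intro h
    have := congrFun (congrFun (congrArg (fun y => ((y.1 : GL (Fin 2) F) : L.M2 F)) h) 0) 0
    simp at this
    exact h2 (by linear_combination -this)
  · by_contra hne
    push Not at hne
    have hcm : ∀ a b : (D : Subgroup (GL (Fin 2) F)), a * b = b * a := fun a b => by
      calc a * b = a * (a * b * (a * b)) * b := by rw [hne (a * b), mul_one]
        _ = (a * a) * b * a * (b * b) := by group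
        _ = b * a := by rw [hne a, hne b]; group
    obtain ⟨d, hd⟩ := big_of_card (fun x hx => hnrm x hx fun g => hcm _ _) (by omega)
    exact hd (hne d)

theorem nr_gl_three (hq : Fintype.card F % 4 = 3) (m r : ℕ) (hr : r ≤ 1)
    (Q : Sylow 2 (GL (Fin (2 * m + r)) F)) : NR (m + r) (Q : Subgroup (GL (Fin (2 * m + r)) F)) := by
  classical
  have hF : Odd (Fintype.card F) := by rw [Nat.odd_iff]; omega
  have h2 := H10.two_ne_zero_of_odd_card hF
  have h1 := Fintype.one_lt_card (α := F)
  have := finite_linEquiv (F := F) (V := (Fin m → Fin 2 → F) × (Fin r → F))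
  have hn : finrank F ((Fin m → Fin 2 → F) × (Fin r → F)) = 2 * m + r := by
    simp [Module.finrank_pi_fintype, mul_comm]
  obtain ⟨e, -⟩ := exists_gl_equiv hn
  obtain ⟨D⟩ : Nonempty (Sylow 2 (GL (Fin 2) F)) := inferInstance
  obtain ⟨T⟩ : Nonempty (Sylow 2 (Equiv.Perm (Fin m))) := inferInstance
  let w := (linWr F (Fin m) (Fin 2 → F) (Fin r → F)).sub
    ((H10.glEquiv (ι := Fin 2) (F := F)).toMonoidHom.comp (D : Subgroup _).subtype)
    (H10.glEquiv.injective.comp Subtype.coe_injective) (sgnHom F (Fin r)) (sgnHom_injective h2 _)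
  obtain ⟨z, hz⟩ := good_GL2 hq D
  have h0 := wr_nr w T hz
  refine nr_sylow e.symm (w.S T) ?_ (by simpa using h0) Q
  have hq1 : (Fintype.card F - 1).factorization 2 = 1 := by
    obtain ⟨t, ht⟩ : ∃ t, Fintype.card F - 1 = 2 * (2 * t + 1) := ⟨(Fintype.card F - 3) / 4, by omega⟩
    rw [ht, fact_mul_two (by omega) (by omega), fact_odd (a := 2 * t + 1) (by simp),
      Nat.prime_two.factorization_self]
  have hgl := fact_gl_even hF h1 1
  rw [w.card_S, card_sylow_perm, D.card_eq_multiplicity, fact_card_gl hF hn, Matrix.card_GL_field,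
    fact_gl_eq hF h1, hgl]
  interval_cases r
  · rw [add_zero, fact_gl_even hF h1]
    simp
    ring
  · rw [Finset.sum_range_succ, fact_gl_even hF h1, fact_odd_pow hF h1, hq1]
    simp
    ring

end H03.NRk
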