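import Mathlib
import Cfsg.Agent.H02.Fitting
import Cfsg.Agent.H03.PResidual

/-!
# Nilpotent permutation groups: order bounds

* `H03.NilS.key` : Sylow subgroups of a transitive nilpotent group of degree `m`
* `H03.NilS.orb_bound` : bound when the odd part has no fixed point
-/

namespace H03.NilS

open Subgroup

/-- the `p`-adic bound for a transitive nilpotent group of order `c` and degree `m` -/
def Key (c m : ℕ) : Prop :=
  ∀ p k a : ℕ, p.Prime → p ^ k ∣ c → ¬ p ^ (a + 1) ∣ m → (p - 1) * k + 1 ≤ p ^ a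

section grp
variable {N : Type*} [Group N] [Finite N]

theorem pow_dvd_index_iff {p : ℕ} [hp : Fact p.Prime] (P : Sylow p N) [(P : Subgroup N).Normal]
    (H : Subgroup N) (k : ℕ) : p ^ k ∣ H.index ↔ p ^ k ∣ H.relIndex P := by
  have h1 : (P : Subgroup N).relIndex H * H.index = H.relIndex P * (P : Subgroup N).index := by
    rw [← inf_relIndex_right (P : Subgroup N) H, ← inf_relIndex_left (P : Subgroup N) H,
      relIndex_mul_index inf_le_right, relIndex_mul_index inf_le_left]
  have h2 : Nat.Coprime (p ^ k) (P : Subgroup N).index :=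
    Nat.Coprime.pow_left _ ((Nat.Prime.coprime_iff_not_dvd hp.out).2 P.not_dvd_index)
  have h3 : Nat.Coprime (p ^ k) ((P : Subgroup N).relIndex H) :=
    h2.coprime_dvd_right (relIndex_dvd_index_of_normal _ _)
  constructor
  · intro h
    exact h2.dvd_of_dvd_mul_right (h1 ▸ h.mul_left _)
  · intro h
    exact h3.dvd_of_dvd_mul_left (h1 ▸ h.mul_right _)

theorem index_core_dvd {G : Type*} [Group G] [Finite G] (H : Subgroup G) :
    H.normalCore.index ∣ H.index.factorial := by
  rw [normalCore_eq_ker, index_ker]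
  have := card_subgroup_dvd_card (MulAction.toPermHom G (G ⧸ H)).range
  rwa [Nat.card_perm] at this

theorem key [Group.IsNilpotent N] (H : Subgroup N) : Key H.normalCore.index H.index := by
  intro p k a hp hk ha
  have := Fact.mk hp
  obtain ⟨P⟩ : Nonempty (Sylow p N) := inferInstance
  have : (P : Subgroup N).Normal := inferInstance
  rw [pow_dvd_index_iff P] at hk
  have hle : (H.subgroupOf P).normalCore ≤ H.normalCore.subgroupOf P := by
    intro x hx g
    obtain ⟨u, s, -, -, ⟨j, hu⟩, hs, rfl⟩ := H03.exists_pPart_mul (p := p) g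
    have huP : u ∈ (P : Subgroup N) := by
      have : IsPGroup p (zpowers u) := IsPGroup.of_card (by rw [Nat.card_zpowers, hu])
      obtain ⟨Q, hQ⟩ := this.exists_le_sylow
      have := Sylow.unique_of_normal P inferInstance
      rw [Subsingleton.elim P Q]
      exact hQ (mem_zpowers u)
    obtain ⟨i, hi⟩ := IsPGroup.iff_orderOf.1 P.isPGroup' x
    have hc : Commute s (x : N) := H02.commute_of_coprime_of_isNilpotent (by
      rw [← orderOf_coe] at hi
      rw [hi]; exact hs.pow_right _)
    have := hx ⟨u, huP⟩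
    rw [mem_subgroupOf] at this
    change u * s * (x : N) * (u * s)⁻¹ ∈ H
    rw [mul_assoc u, hc.eq]
    simpa [mul_assoc] using this
  have h1 : H.normalCore.relIndex P ∣ (H.relIndex P).factorial :=
    (index_dvd_of_le hle).trans (index_core_dvd _)
  obtain ⟨b, hb⟩ : ∃ b, H.relIndex P = p ^ b := P.isPGroup'.index _
  have h2 : p ^ b ∣ H.index := (pow_dvd_index_iff P H b).2 (hb ▸ dvd_rfl)
  have h3 : b ≤ a := by
    by_contra h
    exact ha ((pow_dvd_pow p (by omega)).trans h2)
  have h4 := hk.trans h1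
  rw [hb, padicValNat_dvd_iff_le (Nat.factorial_ne_zero _)] at h4
  have h5 := sub_one_mul_padicValNat_factorial_lt_of_ne_zero p (n := p ^ b) (pow_ne_zero _ hp.ne_zero)
  have h6 := Nat.mul_le_mul_left (p - 1) h4
  have h7 := Nat.pow_le_pow_right hp.pos h3
  omega

end grp

theorem sq_le_three_pow {p : ℕ} (hp : 3 ≤ p) : p ^ 2 ≤ 3 ^ (p - 1) := by
  induction p, hp using Nat.le_induction with
  | base => norm_num
  | succ n hn ih =>
    obtain ⟨m, rfl⟩ : ∃ m, n = m + 1 := ⟨n - 1, by omega⟩
    simp only [Nat.add_sub_cancel] at ih ⊢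
    rw [pow_succ 3 m]
    nlinarith

theorem prod_bound (S : Finset ℕ) (x w : ℕ → ℕ) (h : ∀ p ∈ S, x p ^ 2 * 3 ≤ 3 ^ w p) (hw : ∀ p ∈ S, 1 ≤ w p) :
    (∏ p ∈ S, x p) ^ 2 * 3 ≤ 3 ^ (∏ p ∈ S, w p) := by
  classical
  induction S using Finset.induction with
  | empty => simp
  | insert a S ha ih =>
    rw [Finset.prod_insert ha, Finset.prod_insert ha]
    have h1 := ih (fun p hp => h p (Finset.mem_insert_of_mem hp)) (fun p hp => hw p (Finset.mem_insert_of_mem hp))
    have h2 := h a (Finset.mem_insert_self _ _)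
    have h3 := hw a (Finset.mem_insert_self _ _)
    have h4 : 1 ≤ ∏ p ∈ S, w p := Finset.one_le_prod' fun p hp => hw p (Finset.mem_insert_of_mem hp)
    have h5 : w a + ∏ p ∈ S, w p ≤ w a * ∏ p ∈ S, w p + 1 := by nlinarith
    have h6 := Nat.pow_le_pow_right (show 0 < 3 by norm_num) h5
    rw [pow_add, pow_succ] at h6
    have h7 := Nat.mul_le_mul h2 h1
    rw [mul_pow]
    nlinarith

theorem key_sq {c m : ℕ} (hc : c ≠ 0) (hm : m ≠ 0) (h : Key c m) {r : ℕ} (hr : r.Prime) (hr2 : r ≠ 2)
    (hrc : r ∣ c) : c ^ 2 * 3 ≤ 3 ^ m := by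
  classical
  have hk : ∀ p, p.Prime → (p - 1) * c.factorization p + 1 ≤ p ^ m.factorization p := fun p hp =>
    h p _ _ hp (Nat.ordProj_dvd c p) (Nat.pow_succ_factorization_not_dvd hm hp)
  set S := c.primeFactors.erase 2 with hS
  have hSp : ∀ p ∈ S, p.Prime ∧ p ≠ 2 := fun p hp =>
    ⟨Nat.prime_of_mem_primeFactors (Finset.mem_of_mem_erase hp), Finset.ne_of_mem_erase hp⟩
  have h1 := prod_bound S (fun p => p ^ c.factorization p) (fun p => p ^ m.factorization p)
    (fun p hp => by
      have h3 : 3 ≤ p := by have := (hSp p hp).1.two_le; have := (hSp p hp).2; omega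
      have h4 := Nat.pow_le_pow_left (sq_le_three_pow h3) (c.factorization p)
      have h5 := Nat.pow_le_pow_right (show 0 < 3 by norm_num) (hk p (hSp p hp).1)
      rw [← pow_mul, ← pow_mul] at h4
      rw [pow_succ] at h5
      rw [← pow_mul, mul_comm (c.factorization p)]
      omega)
    (fun p hp => Nat.one_le_pow _ _ (hSp p hp).1.pos)
  have h2 : c = 2 ^ c.factorization 2 * ∏ p ∈ S, p ^ c.factorization p := by
    conv_lhs => rw [← Nat.prod_factorization_pow_eq_self hc, Finsupp.prod, Nat.support_factorization]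
    by_cases h2 : 2 ∈ c.primeFactors
    · exact (Finset.mul_prod_erase _ (fun p => p ^ c.factorization p) h2).symm
    · rw [hS, Finset.erase_eq_of_notMem h2, Finsupp.notMem_support_iff.1 (by simpa using h2)]
      simp
  have h3 : 2 ^ m.factorization 2 * ∏ p ∈ S, p ^ m.factorization p ∣ m := by
    rw [← Finset.prod_insert (s := S) (a := 2) (f := fun p => p ^ m.factorization p) (by simp [hS])]
    refine Finset.prod_dvd_of_isRelPrime ?_ fun p _ => Nat.ordProj_dvd m p
    intro p hp q hq hpq
    have hp' : p.Prime := by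
      rcases Finset.mem_insert.1 hp with rfl | h
      exacts [Nat.prime_two, (hSp p h).1]
    have hq' : q.Prime := by
      rcases Finset.mem_insert.1 hq with rfl | h
      exacts [Nat.prime_two, (hSp q h).1]
    exact Nat.coprime_iff_isRelPrime.1 (Nat.coprime_pow_primes _ _ hp' hq' hpq)
  have hrS : r ∈ S := Finset.mem_erase.2 ⟨hr2, Nat.mem_primeFactors.2 ⟨hr, hrc, hc⟩⟩
  have h4 : 3 ≤ ∏ p ∈ S, p ^ m.factorization p := by
    have a1 := hk r hr
    have a2 := hr.factorization_pos_of_dvd hc hrc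
    have a3 : 3 ≤ r := by have := hr.two_le; omega
    have a4 : (r - 1) * 1 ≤ (r - 1) * c.factorization r := Nat.mul_le_mul_left _ a2
    refine le_trans (by omega : 3 ≤ r ^ m.factorization r) ?_
    exact Finset.single_le_prod' (f := fun p => p ^ m.factorization p)
      (fun p hp => Nat.one_le_pow _ _ (hSp p hp).1.pos) hrS
  have h5 := hk 2 Nat.prime_two
  have h6 := Nat.le_of_dvd (Nat.pos_of_ne_zero hm) h3
  set u := 2 ^ m.factorization 2
  set v := ∏ p ∈ S, p ^ m.factorization p
  set e := c.factorization 2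
  set y := ∏ p ∈ S, p ^ c.factorization p
  have h7 : (2 ^ e) ^ 2 ≤ 3 ^ (2 * e) := by
    rw [← pow_mul, mul_comm e]; exact Nat.pow_le_pow_left (by norm_num) _
  have h8 : 2 * e + v ≤ m := by
    obtain ⟨u', hu⟩ : ∃ u', u = u' + 1 := ⟨u - 1, by omega⟩
    rw [hu] at h5 h6
    nlinarith
  have h9 := Nat.pow_le_pow_right (show 0 < 3 by norm_num) h8
  rw [h2, mul_pow, mul_assoc]
  refine le_trans (Nat.mul_le_mul h7 h1) ?_
  rwa [← pow_add]

/-- orders of transitive nilpotent groups of small degree -/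
def tt (m : ℕ) : ℕ := [1, 1, 2, 3, 8, 5, 6, 7, 128, 81, 10, 11, 24, 13, 14, 15].getD m 0

/-- the same, with non-trivial odd part -/
def t2 (m : ℕ) : ℕ := [0, 0, 0, 3, 0, 5, 6, 7, 0, 81, 10, 11, 24, 13, 14, 15].getD m 0

/-- orders of nilpotent groups of small degree with fixed point free odd part -/
def tab (m : ℕ) : ℕ := [1, 0, 0, 3, 0, 5, 9, 7, 15, 81, 25, 45, 243, 75, 405, 729].getD m 0

set_option synthInstance.maxSize 2000 in
set_option synthInstance.maxHeartbeats 400000 in
theorem tt_spec : ∀ m ≤ 15, ∀ p ≤ 15, 2 ≤ p → p ∣ m → m ≠ 0 → ∃ a ≤ 3, ¬ p ^ (a + 1) ∣ m ∧ p ^ a ≤ 15 ∧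
    ∀ k ≤ 15, (p - 1) * k + 1 ≤ p ^ a → p ^ k ∣ tt m := by decide +kernel

theorem key_small {c m : ℕ} (hm : m ≠ 0) (h : Key c m) {r : ℕ} (hr : r.Prime) (hr2 : r ≠ 2)
    (hrc : r ∣ c) (h15 : m ≤ 15) : c ≤ t2 m := by
  have h1 : c ∣ tt m := by
    rw [Nat.dvd_iff_prime_pow_dvd_dvd]
    intro p k hp hk
    by_cases hpm : p ∣ m
    · obtain ⟨a, -, h2, h3, h4⟩ := tt_spec m h15 p ((Nat.le_of_dvd (by omega) hpm).trans h15) hp.two_le hpm hm
      have h5 := h p k a hp hk h2
      refine h4 k ?_ h5
      have : 1 * k ≤ (p - 1) * k := Nat.mul_le_mul_right _ (by have := hp.two_le; omega)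
      omega
    · have h5 := h p k 0 hp hk (by simpa using hpm)
      rw [pow_zero] at h5
      have : 1 * k ≤ (p - 1) * k := Nat.mul_le_mul_right _ (by have := hp.two_le; omega)
      have : k = 0 := by omega
      simp [this]
  have h2 : ∀ j, tt m ≠ 2 ^ j := fun j hj => hr2 ((Nat.prime_dvd_prime_iff_eq hr Nat.prime_two).1
    (hr.dvd_of_dvd_pow (hj ▸ hrc.trans h1)))
  have h3 : tt m = t2 m ∧ 0 < tt m := by
    have a0 := h2 0
    have a1 := h2 1
    have a3 := h2 3
    have a7 := h2 7
    interval_cases m <;> simp_all [tt, t2]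
  exact h3.1 ▸ Nat.le_of_dvd h3.2 h1

theorem tab_step : ∀ k ≤ 15, ∀ m ≤ k, t2 m * tab (k - m) ≤ tab k := by decide +kernel

/-- the bound for a faithful nilpotent group of order `a` on `k` points with fixed point free odd part -/
def GB (k a : ℕ) : Prop := (1 ≤ k → a ^ 2 * 3 ≤ 3 ^ k) ∧ (k ≤ 15 → a ≤ tab k)

theorem orb_bound {N Ω : Type*} [Group N] [Finite N] [Group.IsNilpotent N] [MulAction N Ω] (k : ℕ) :
    ∀ Δ : Finset Ω, Δ.card = k → (∀ g : N, ∀ x ∈ Δ, g • x ∈ Δ) →
      (∀ x ∈ Δ, ∃ g : N, Odd (orderOf g) ∧ g • x ≠ x) → GB k (fixingSubgroup N (Δ : Set Ω)).index := by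
  classical
  induction k using Nat.strong_induction_on with
  | _ k ih =>
    intro Δ hk hinv hodd
    rcases Δ.eq_empty_or_nonempty with rfl | ⟨x, hx⟩
    · subst hk
      refine ⟨by simp, fun _ => ?_⟩
      simp [tab]
    let O := Δ.filter fun y => y ∈ MulAction.orbit N x
    have hO : (O : Set Ω) = MulAction.orbit N x := by
      ext y
      simp only [O, Finset.coe_filter, Set.mem_ofPred_eq, and_iff_right_iff_imp]
      rintro ⟨g, rfl⟩; exact hinv g x hx
    have hm : (MulAction.stabilizer N x).index = O.card := by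
      rw [MulAction.index_stabilizer, ← hO, Set.ncard_coe_finset]
    have hfix : fixingSubgroup N (O : Set Ω) = (MulAction.stabilizer N x).normalCore := by
      ext g
      rw [mem_fixingSubgroup_iff, hO]
      constructor
      · intro h b
        rw [MulAction.mem_stabilizer_iff, mul_smul, mul_smul, h _ ⟨b⁻¹, rfl⟩, smul_inv_smul]
      · rintro h _ ⟨b, rfl⟩
        have := h b⁻¹
        rw [MulAction.mem_stabilizer_iff, mul_smul, mul_smul, inv_inv, inv_smul_eq_iff] at this
        exact this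
    have hkey := key (MulAction.stabilizer N x)
    rw [hm, ← hfix] at hkey
    have hOpos : O.card ≠ 0 := Finset.card_ne_zero.2 ⟨x, by simp [O, hx]⟩
    have hOle : O ⊆ Δ := Finset.filter_subset _ _
    -- an odd prime divides the index
    obtain ⟨r, hr, hr2, hrc⟩ : ∃ r : ℕ, r.Prime ∧ r ≠ 2 ∧ r ∣ (fixingSubgroup N (O : Set Ω)).index := by
      obtain ⟨g, hg, hgx⟩ := hodd x hx
      rw [hfix]
      let f := QuotientGroup.mk' (MulAction.stabilizer N x).normalCore
      have h1 : orderOf (f g) ≠ 1 := by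
        rw [Ne, orderOf_eq_one_iff, QuotientGroup.mk'_apply, QuotientGroup.eq_one_iff]
        exact fun h => hgx (normalCore_le _ h)
      obtain ⟨r, hr, hd⟩ := Nat.exists_prime_and_dvd h1
      refine ⟨r, hr, ?_, hd.trans (orderOf_dvd_natCard _)⟩
      rintro rfl
      exact (Nat.not_even_iff_odd.2 hg) (even_iff_two_dvd.2 (hd.trans (orderOf_map_dvd f g)))
    have hrest := ih (k - O.card) (by have := Finset.card_le_card hOle; omega) (Δ \ O)
      (by rw [Finset.card_sdiff_of_subset hOle, hk]) (fun g y hy => by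
        rw [Finset.mem_sdiff] at hy ⊢
        refine ⟨hinv g y hy.1, fun h => hy.2 ?_⟩
        rw [← Finset.mem_coe, hO] at h ⊢
        obtain ⟨b, hb⟩ := h
        exact ⟨g⁻¹ * b, by simp only [mul_smul] at hb ⊢; rw [hb, inv_smul_smul]⟩)
      (fun y hy => hodd y (Finset.mem_sdiff.1 hy).1)
    have hle : (fixingSubgroup N (Δ : Set Ω)).index ≤ (fixingSubgroup N (O : Set Ω)).index *
        (fixingSubgroup N ((Δ \ O : Finset Ω) : Set Ω)).index := by
      have : (Δ : Set Ω) = (O : Set Ω) ∪ ((Δ \ O : Finset Ω) : Set Ω) := by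
        rw [← Finset.coe_union, Finset.union_sdiff_of_subset hOle]
      conv_lhs => rw [this]
      rw [fixingSubgroup_union]
      exact index_inf_le
    have hmk : O.card ≤ k := hk ▸ Finset.card_le_card hOle
    set a := (fixingSubgroup N (Δ : Set Ω)).index
    set c := (fixingSubgroup N (O : Set Ω)).index
    set b := (fixingSubgroup N ((Δ \ O : Finset Ω) : Set Ω)).index
    have hc0 : c ≠ 0 := index_ne_zero_of_finite
    refine ⟨fun _ => ?_, fun h15 => ?_⟩
    · have h1 := key_sq hc0 hOpos hkey hr hr2 hrc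
      have h2 : b ^ 2 ≤ 3 ^ (k - O.card) := by
        rcases Nat.eq_zero_or_pos (k - O.card) with h0 | h0
        · have := hrest.2 (by omega)
          rw [h0] at this ⊢
          simp only [tab, List.getD_cons_zero] at this
          nlinarith
        · have := hrest.1 h0
          omega
      have h3 := Nat.mul_le_mul h1 h2
      rw [← pow_add, Nat.add_sub_cancel' hmk] at h3
      have h4 := Nat.pow_le_pow_left hle 2
      rw [mul_pow] at h4
      nlinarith
    · have h1 := key_small hOpos hkey hr hr2 hrc (by omega)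
      have h2 := hrest.2 (by omega)
      exact hle.trans ((Nat.mul_le_mul h1 h2).trans (tab_step k h15 _ hmk))

end H03.NilS
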