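import Mathlib
import Cfsg.Agent.H03.NilS1

/-!
# Largest nilpotent subgroups of symmetric and alternating groups

* `H03.NilS.struct`, `sym_le`, `sym_three`, `alt_le`, `alt_three`, `conj_of_max`
-/

namespace H03.NilS

open Subgroup Equiv

/-- order of a Sylow 2-subgroup of the symmetric group -/
def s2 (n : ℕ) : ℕ := 2 ^ n.factorial.factorization 2

theorem s2_pos (n : ℕ) : 0 < s2 n := by unfold s2; positivity

theorem le_s2 {j n : ℕ} (h : 2 ^ j ∣ n.factorial) : 2 ^ j ≤ s2 n :=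
  Nat.pow_le_pow_right (by norm_num)
    ((Nat.prime_two.pow_dvd_iff_le_factorization (Nat.factorial_ne_zero n)).1 h)

theorem s2_dvd (n : ℕ) : s2 n ∣ n.factorial := Nat.ordProj_dvd _ _

theorem s2_mul (a b : ℕ) : s2 a * s2 b ≤ s2 (a + b) := by
  have h := (Nat.mul_dvd_mul (s2_dvd a) (s2_dvd b)).trans (Nat.factorial_mul_factorial_dvd_factorial_add a b)
  unfold s2 at h ⊢
  rw [← pow_add] at h ⊢
  exact le_s2 h

theorem s2_mono {a b : ℕ} (h : a ≤ b) : s2 a ≤ s2 b :=
  le_s2 ((s2_dvd a).trans (Nat.factorial_dvd_factorial h))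

theorem s2_add_three {m : ℕ} (h : m % 4 ≠ 0) : 4 * s2 m ≤ s2 (m + 3) := by
  have h1 : 4 ∣ (m + 3) * ((m + 2) * (m + 1)) := by
    have : m % 4 = 1 ∨ m % 4 = 2 ∨ m % 4 = 3 := by omega
    rcases this with h | h | h
    · exact Dvd.dvd.mul_right (by omega) _
    · exact Dvd.dvd.mul_left (Dvd.dvd.mul_right (by omega) _) _
    · exact Dvd.dvd.mul_left (Dvd.dvd.mul_left (by omega) _) _
  have h2 : 4 * s2 m ∣ (m + 3).factorial := by
    have : (m + 3).factorial = (m + 3) * ((m + 2) * (m + 1)) * m.factorial := by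
      simp [Nat.factorial_succ]; ring
    rw [this]; exact Nat.mul_dvd_mul h1 (s2_dvd m)
  have h3 : 4 * s2 m = 2 ^ (2 + m.factorial.factorization 2) := by unfold s2; rw [pow_add]; rfl
  rw [h3] at h2 ⊢
  exact le_s2 h2

theorem s2_add_three' {m : ℕ} (h : m % 4 = 0) : s2 (m + 3) = 2 * s2 m := by
  have f : ∀ {a b : ℕ}, a ≠ 0 → b ≠ 0 → (a * b).factorization 2 = a.factorization 2 + b.factorization 2 :=
    fun ha hb => by rw [Nat.factorization_mul ha hb]; rfl
  have o : ∀ {a : ℕ}, a % 2 = 1 → a.factorization 2 = 0 := fun ha =>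
    Nat.factorization_eq_zero_of_not_dvd (by omega)
  have h1 : (m + 2).factorization 2 = 1 := by
    rw [show m + 2 = 2 * (2 * (m / 4) + 1) by omega, f (by omega) (by omega), o (a := 2 * (m / 4) + 1) (by omega),
      Nat.prime_two.factorization_self]
  unfold s2
  rw [Nat.factorial_succ, Nat.factorial_succ, Nat.factorial_succ, f (by omega) (by positivity),
    f (by omega) (by positivity), f (by omega) (by positivity), o (a := m + 2 + 1) (by omega),
    o (a := m + 1) (by omega), h1]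
  ring

/-- explicit lower bound -/
def sl (k : ℕ) : ℕ := 2 ^ (k / 2 + k / 4 + k / 8 + k / 16)

theorem sl_le {k : ℕ} (hk : k ≤ 23) : sl k ≤ s2 k := by
  refine le_s2 ?_
  revert k
  decide +kernel

theorem s2_big {k : ℕ} (hk : 16 ≤ k) : 4 * 3 ^ k ≤ s2 k ^ 2 * 3 := by
  induction k using Nat.strong_induction_on with
  | _ k ih =>
    by_cases h : k ≤ 23
    · have h1 : ∀ k ≤ 23, 16 ≤ k → 4 * 3 ^ k ≤ sl k ^ 2 * 3 := by decide +kernel
      exact (h1 k h hk).trans (Nat.mul_le_mul_right _ (Nat.pow_le_pow_left (sl_le h) _))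
    · obtain ⟨m, rfl⟩ : ∃ m, k = m + 8 := ⟨k - 8, by omega⟩
      have h1 := ih m (by omega) (by omega)
      have h2 := s2_mul m 8
      have h3 : 128 ≤ s2 8 := sl_le (k := 8) (by norm_num)
      have h4 : s2 m * 128 ≤ s2 (m + 8) := (Nat.mul_le_mul_left _ h3).trans h2
      have h5 := Nat.pow_le_pow_left h4 2
      rw [mul_pow] at h5
      rw [pow_add]
      nlinarith

theorem GB.big {k a : ℕ} (h : GB k a) (hk : 16 ≤ k) : 2 * a ≤ s2 k := by
  have h1 := h.1 (by omega)
  have h2 := s2_big hk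
  by_contra hne
  have h3 : s2 k ^ 2 < (2 * a) ^ 2 := Nat.pow_lt_pow_left (by omega) (by norm_num)
  nlinarith

theorem GB.le {k a : ℕ} (h : GB k a) (hk : k ≠ 3) : a ≤ s2 k := by
  by_cases h15 : k ≤ 15
  · have h1 : ∀ k ≤ 15, k ≠ 3 → tab k ≤ sl k := by decide +kernel
    exact (h.2 h15).trans ((h1 k h15 hk).trans (sl_le (by omega)))
  · have := h.big (by omega)
    omega

theorem struct {n : ℕ} (N : Subgroup (Perm (Fin n))) [Group.IsNilpotent N] :
    ∃ k a b, k ≤ n ∧ Nat.card N = a * b ∧ GB k a ∧ b ≤ s2 (n - k) ∧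
      (N ≤ alternatingGroup (Fin n) → 2 ≤ n - k → 2 * b ≤ s2 (n - k)) ∧
      (k = 3 → ∃ c ∈ N, c.IsThreeCycle) := by
  classical
  let Δ : Finset (Fin n) := Finset.univ.filter fun x => ∃ g : N, Odd (orderOf g) ∧ g • x ≠ x
  have hΔ : ∀ x, x ∈ Δ ↔ ∃ g : N, Odd (orderOf g) ∧ g • x ≠ x := fun x => by simp [Δ]
  have hinv : ∀ g : N, ∀ x ∈ Δ, g • x ∈ Δ := by
    intro g x hx
    obtain ⟨u, hu, hux⟩ := (hΔ x).1 hx
    refine (hΔ _).2 ⟨g * u * g⁻¹, ?_, ?_⟩
    · have : orderOf (g * u * g⁻¹) = orderOf u := (MulAut.conj g).orderOf_eq u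
      rwa [this]
    · rw [mul_smul, mul_smul, inv_smul_smul]
      exact fun h => hux (smul_left_cancel g h)
  have hGB := orb_bound (N := N) Δ.card Δ rfl hinv (fun x hx => (hΔ x).1 hx)
  set K := fixingSubgroup N (Δ : Set (Fin n)) with hK
  have hKm : ∀ g : K, ∀ x ∈ Δ, g.1.1 x = x := fun g x hx => (mem_fixingSubgroup_iff N).1 g.2 x hx
  have hodd : ∀ g : N, Odd (orderOf g) → ∀ x, g.1 x ≠ x → x ∈ Δ := fun g hg x hx => (hΔ x).2 ⟨g, hg, hx⟩
  have hK2 : IsPGroup 2 K := by
    have := Fact.mk Nat.prime_two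
    rw [IsPGroup.iff_card]
    refine ⟨_, Nat.eq_prime_pow_of_unique_prime_dvd Nat.card_pos.ne' fun {r} hr hd => ?_⟩
    by_contra h2
    have := Fact.mk hr
    obtain ⟨g, hg⟩ := exists_prime_orderOf_dvd_card' r hd
    have h1 : orderOf g.1 = r := by rw [orderOf_coe, hg]
    have h3 : g = 1 := by
      refine Subtype.ext (Subtype.ext (Equiv.ext fun x => ?_))
      by_contra hx
      exact hx (hKm g x (hodd g.1 (h1 ▸ hr.odd_of_ne_two h2) x hx))
    rw [h3, orderOf_one] at hg
    exact hr.one_lt.ne hg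
  obtain ⟨j, hj⟩ := IsPGroup.iff_card.1 hK2
  have hp : ∀ g : K, ∀ x, g.1.1 x ∉ Δ ↔ x ∉ Δ := by
    intro g x
    refine not_congr ⟨fun h => ?_, fun h => by rwa [hKm g x h]⟩
    have := hKm g _ h
    rw [g.1.1.injective this] at h
    exact h
  let f : K →* Perm {x // x ∉ Δ} := MonoidHom.mk' (fun g => g.1.1.subtypePerm (hp g)) fun _ _ => rfl
  have hf : Function.Injective f := by
    rw [injective_iff_map_eq_one]
    intro g hg
    refine Subtype.ext (Subtype.ext (Equiv.ext fun x => ?_))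
    by_cases hx : x ∈ Δ
    · exact hKm g x hx
    · exact congrArg Subtype.val (Equiv.congr_fun hg ⟨x, hx⟩)
  have hc : Fintype.card {x // x ∉ Δ} = n - Δ.card := by
    rw [Fintype.card_subtype_compl, Fintype.card_fin, Fintype.card_coe]
  refine ⟨Δ.card, K.index, Nat.card K, by simpa using Δ.card_le_univ, (index_mul_card K).symm, hGB,
    ?_, fun hA h2 => ?_, fun h3 => ?_⟩
  · have := card_dvd_of_injective f hf
    rw [Nat.card_perm, Nat.card_eq_fintype_card (α := {x // x ∉ Δ}), hc, hj] at this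
    rw [hj]; exact le_s2 this
  · have : Nontrivial {x // x ∉ Δ} := Fintype.one_lt_card_iff_nontrivial.1 (by omega)
    have h4 := card_dvd_of_injective (f.codRestrict (alternatingGroup _) fun g => by
      rw [Perm.mem_alternatingGroup]
      exact (Perm.sign_subtypePerm (p := fun x => x ∉ Δ) g.1.1 (hp g) fun x hx h => hx (hKm g x h)).trans (hA g.1.2))
      (fun a b h => hf (congrArg Subtype.val h))
    have h5 := Nat.mul_dvd_mul_left 2 h4
    rw [two_mul_nat_card_alternatingGroup, Nat.card_perm, Nat.card_eq_fintype_card (α := {x // x ∉ Δ}), hc,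
      hj, ← pow_succ'] at h5
    rw [hj, ← pow_succ']; exact le_s2 h5
  · obtain ⟨x, hx⟩ : Δ.Nonempty := Finset.card_pos.1 (by omega)
    obtain ⟨g, hg, hgx⟩ := (hΔ x).1 hx
    refine ⟨g.1, g.2, card_support_eq_three_iff.1 ?_⟩
    have h1 : g.1.support.card ≤ 3 :=
      h3 ▸ Finset.card_le_card fun y hy => hodd g hg y (Perm.mem_support.1 hy)
    have h2 : g.1.support.card ≠ 0 := Finset.card_ne_zero.2 ⟨x, Perm.mem_support.2 hgx⟩
    have h4 := g.1.card_support_ne_one
    have h5 : g.1.support.card ≠ 2 := fun h => by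
      have := (Perm.card_support_eq_two.1 h).orderOf
      rw [← orderOf_coe, this] at hg
      exact absurd hg (by decide)
    omega

theorem card_sylow_sym {n : ℕ} (P : Sylow 2 (Perm (Fin n))) : Nat.card P = s2 n := by
  rw [P.card_eq_multiplicity, Nat.card_perm]; simp [s2]

theorem card_sylow_alt {n : ℕ} (hn : 2 ≤ n) (P : Sylow 2 (alternatingGroup (Fin n))) :
    2 * Nat.card P = s2 n := by
  have : Nontrivial (Fin n) := Fin.nontrivial_iff_two_le.2 hn
  have h := two_mul_nat_card_alternatingGroup (α := Fin n)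
  rw [Nat.card_perm, Nat.card_eq_fintype_card (α := Fin n), Fintype.card_fin] at h
  rw [P.card_eq_multiplicity, s2, ← h, Nat.factorization_mul (by norm_num) Nat.card_pos.ne']
  simp [Nat.prime_two.factorization_self, pow_add]

theorem sym_le {n : ℕ} (hn : n % 4 ≠ 3) (N : Subgroup (Perm (Fin n))) [Group.IsNilpotent N] :
    Nat.card N ≤ s2 n := by
  obtain ⟨k, a, b, h1, h2, h3, h4, -, -⟩ := struct N
  rw [h2]
  by_cases hk : k = 3
  · subst hk
    have h5 : a ≤ 3 := h3.2 (by norm_num)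
    have h6 := s2_add_three (m := n - 3) (by omega)
    rw [Nat.sub_add_cancel h1] at h6
    nlinarith
  · have h5 := s2_mul k (n - k)
    rw [Nat.add_sub_cancel' h1] at h5
    exact (Nat.mul_le_mul (h3.le hk) h4).trans h5

theorem sym_three {n : ℕ} (hn : n % 4 = 3) (N : Subgroup (Perm (Fin n))) [Group.IsNilpotent N] :
    Nat.card N ≤ 3 * s2 (n - 3) ∧ (Nat.card N = 3 * s2 (n - 3) → ∃ c ∈ N, c.IsThreeCycle) := by
  obtain ⟨k, a, b, h1, h2, h3, h4, -, h7⟩ := struct N
  rw [h2]
  by_cases hk : k = 3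
  · subst hk
    exact ⟨Nat.mul_le_mul (h3.2 (by norm_num)) h4, fun _ => h7 rfl⟩
  · have h5 := s2_mul k (n - k)
    have h6 := s2_add_three' (m := n - 3) (by omega)
    rw [Nat.add_sub_cancel' h1] at h5
    rw [Nat.sub_add_cancel (by omega)] at h6
    have h8 := (Nat.mul_le_mul (h3.le hk) h4).trans h5
    have := s2_pos (n - 3)
    exact ⟨by omega, fun h => by omega⟩

theorem s2_le_one {m : ℕ} (h : m ≤ 1) : s2 m = 1 := by
  interval_cases m <;> simp [s2]

theorem alt_le {n : ℕ} (hn : n % 4 ≠ 3) (h2n : 2 ≤ n) (h5 : n ≠ 5) (h6 : n ≠ 6) (h9 : n ≠ 9)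
    (N : Subgroup (Perm (Fin n))) [Group.IsNilpotent N] (hA : N ≤ alternatingGroup (Fin n)) :
    2 * Nat.card N ≤ s2 n := by
  obtain ⟨k, a, b, h1, h2, h3, h4, h7, -⟩ := struct N
  rw [h2]
  by_cases hnk : 2 ≤ n - k
  · have h8 := h7 hA hnk
    by_cases hk : k = 3
    · subst hk
      have h5 : a ≤ 3 := h3.2 (by norm_num)
      have h6 := s2_add_three (m := n - 3) (by omega)
      rw [Nat.sub_add_cancel h1] at h6
      nlinarith
    · have h5 := s2_mul k (n - k)
      rw [Nat.add_sub_cancel' h1] at h5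
      have := (Nat.mul_le_mul (h3.le hk) h8).trans h5
      nlinarith
  · rw [s2_le_one (by omega)] at h4
    have hab : a * b ≤ a := by nlinarith
    by_cases h15 : k ≤ 15
    · have e : ∀ k ≤ 15, ∀ n ≤ 16, (n % 4 ≠ 3 ∧ 2 ≤ n ∧ n ≠ 5 ∧ n ≠ 6 ∧ n ≠ 9 ∧ k ≤ n ∧ n ≤ k + 1) →
          2 * tab k ≤ sl n := by
        intro k hk n hn
        interval_cases k <;> (revert n; decide +kernel)
      have a1 := e k h15 n (by omega) ⟨hn, h2n, h5, h6, h9, h1, by omega⟩
      have a2 := h3.2 h15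
      have a3 := sl_le (k := n) (by omega)
      omega
    · have a1 := h3.big (by omega)
      have a2 := s2_mono h1
      omega

theorem alt_three {n : ℕ} (hn : n % 4 = 3) (h7n : 7 ≤ n)
    (N : Subgroup (Perm (Fin n))) [Group.IsNilpotent N] (hA : N ≤ alternatingGroup (Fin n)) :
    2 * Nat.card N ≤ 3 * s2 (n - 3) ∧ (2 * Nat.card N = 3 * s2 (n - 3) → ∃ c ∈ N, c.IsThreeCycle) := by
  obtain ⟨k, a, b, h1, h2, h3, h4, h7, h9⟩ := struct N
  rw [h2]
  have h6 := s2_add_three' (m := n - 3) (by omega)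
  rw [Nat.sub_add_cancel (by omega)] at h6
  have := s2_pos (n - 3)
  by_cases hnk : 2 ≤ n - k
  · have h8 := h7 hA hnk
    by_cases hk : k = 3
    · subst hk
      have h5 : a ≤ 3 := h3.2 (by norm_num)
      exact ⟨by nlinarith, fun _ => h9 rfl⟩
    · have h5 := s2_mul k (n - k)
      rw [Nat.add_sub_cancel' h1] at h5
      have := (Nat.mul_le_mul (h3.le hk) h8).trans h5
      have e : a * (2 * b) = 2 * (a * b) := by ring
      exact ⟨by omega, fun h => by omega⟩
  · rw [s2_le_one (by omega)] at h4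
    have hab : a * b ≤ a := by nlinarith
    by_cases h15 : k ≤ 15
    · have e : ∀ k ≤ 15, ∀ n ≤ 16, (n % 4 = 3 ∧ 7 ≤ n ∧ k ≤ n ∧ n ≤ k + 1) →
          4 * tab k < 3 * sl n := by
        intro k hk n hn
        interval_cases k <;> (revert n; decide +kernel)
      have a1 := e k h15 n (by omega) ⟨hn, h7n, h1, by omega⟩
      have a2 := h3.2 h15
      have a3 := sl_le (k := n) (by omega)
      exact ⟨by omega, fun h => by omega⟩
    · have a1 := h3.big (by omega)
      have a2 := s2_mono h1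
      exact ⟨by omega, fun h => by omega⟩

section conj
variable {G : Type*} [Group G] [Finite G]

theorem card_sup_zpowers {c : G} (hc : orderOf c = 3) {R : Subgroup G} (hR : IsPGroup 2 R)
    (hcR : R ≤ centralizer {c}) :
    Nat.card (R ⊔ zpowers c : Subgroup G) = 3 * Nat.card R ∧ Group.IsNilpotent (R ⊔ zpowers c : Subgroup G) := by
  have hcm : ∀ (x : R) (y : zpowers c), Commute (R.subtype x) ((zpowers c).subtype y) := by
    rintro x ⟨_, k, rfl⟩
    exact (show Commute (x : G) c from (mem_centralizer_singleton_iff.1 (hcR x.2))).zpow_right k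
  let f := MonoidHom.noncommCoprod R.subtype (zpowers c).subtype hcm
  have hr : f.range = R ⊔ zpowers c := by
    rw [MonoidHom.noncommCoprod_range, range_subtype, range_subtype]
  obtain ⟨j, hj⟩ := IsPGroup.iff_card.1 hR
  have hd : Disjoint R (zpowers c) := disjoint_of_coprime_natCard (by
    rw [hj, Nat.card_zpowers, hc]; exact Nat.Coprime.pow_left _ (by norm_num))
  have hf : Function.Injective f := by
    rw [injective_iff_map_eq_one]
    rintro ⟨x, y⟩ h
    have h1 : (x : G) * y = 1 := h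
    have h2 : (x : G) = 1 := disjoint_def.1 hd x.2 (by rw [eq_inv_of_mul_eq_one_left h1]; exact inv_mem y.2)
    rw [h2, one_mul] at h1
    exact Prod.ext (Subtype.ext h2) (Subtype.ext h1)
  have := hR.isNilpotent
  have := Fact.mk Nat.prime_three
  have : Group.IsNilpotent (zpowers c) :=
    (IsPGroup.of_card (p := 3) (n := 1) (by rw [Nat.card_zpowers, hc]; rfl)).isNilpotent
  have e := MonoidHom.ofInjective hf
  rw [← hr]
  refine ⟨?_, Group.nilpotent_of_mulEquiv e⟩
  rw [← Nat.card_congr e.toEquiv, Nat.card_prod, Nat.card_zpowers, hc, mul_comm]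

theorem exists_sylow_cent {e : ℕ} (hmax : ∀ N : Subgroup G, Group.IsNilpotent N → Nat.card N ≤ 3 * 2 ^ e)
    (N : Subgroup G) [Group.IsNilpotent N] (hN : Nat.card N = 3 * 2 ^ e) {c : G} (hc : orderOf c = 3)
    (hcN : c ∈ N) : ∃ K : Sylow 2 (centralizer {c} : Subgroup G),
      N = (K : Subgroup (centralizer {c} : Subgroup G)).map (centralizer {c}).subtype ⊔ zpowers c := by
  obtain ⟨Q⟩ : Nonempty (Sylow 2 N) := inferInstance
  let R := (Q : Subgroup N).map N.subtype
  have hR : IsPGroup 2 R := Q.isPGroup'.map _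
  have hRc : Nat.card R = 2 ^ e := by
    rw [card_map_of_injective N.subtype_injective, Q.card_eq_multiplicity, hN,
      Nat.factorization_mul (by norm_num) (by positivity)]
    simp [Nat.prime_three.factorization, Nat.prime_two.factorization_self]
  have hcR : R ≤ centralizer {c} := by
    rintro _ ⟨x, hx, rfl⟩
    obtain ⟨i, hi⟩ := IsPGroup.iff_orderOf.1 Q.isPGroup' ⟨x, hx⟩
    have := H02.commute_of_coprime_of_isNilpotent (x := x) (y := ⟨c, hcN⟩) (by
      rw [← orderOf_coe] at hi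
      rw [show orderOf x = 2 ^ i from hi, orderOf_mk, hc]; exact Nat.Coprime.pow_left _ (by norm_num))
    exact mem_centralizer_singleton_iff.2 (congrArg Subtype.val this.eq)
  obtain ⟨K, hK⟩ := (hR.comap_subtype (K := centralizer {c})).exists_le_sylow
  let R' := (K : Subgroup (centralizer {c} : Subgroup G)).map (centralizer {c}).subtype
  have hRR : R ≤ R' := fun x hx => ⟨⟨x, hcR hx⟩, hK hx, rfl⟩
  obtain ⟨h1, h2⟩ := card_sup_zpowers hc (K.isPGroup'.map (centralizer {c}).subtype) (map_subtype_le _)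
  obtain ⟨h3, -⟩ := card_sup_zpowers hc hR hcR
  have h4 : R ⊔ zpowers c = N := eq_of_le_of_card_ge (sup_le (map_subtype_le _) (zpowers_le.2 hcN)) (by
    rw [h3, hRc, hN])
  refine ⟨K, eq_of_le_of_card_ge (h4 ▸ sup_le_sup_right hRR _) ?_⟩
  rw [hN]; exact hmax _ h2

theorem conj_of_max {e : ℕ} (hmax : ∀ N : Subgroup G, Group.IsNilpotent N → Nat.card N ≤ 3 * 2 ^ e)
    (N₁ N₂ : Subgroup G) [Group.IsNilpotent N₁] [Group.IsNilpotent N₂]
    (h₁ : Nat.card N₁ = 3 * 2 ^ e) (h₂ : Nat.card N₂ = 3 * 2 ^ e) {c₁ c₂ : G} (hc : orderOf c₂ = 3)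
    (hc₁ : c₁ ∈ N₁) (hc₂ : c₂ ∈ N₂) (hcc : IsConj c₁ c₂) :
    ∃ g : G, N₂ = N₁.map (MulAut.conj g).toMonoidHom := by
  obtain ⟨g, hg⟩ := isConj_iff.1 hcc
  have e1 := equivMapOfInjective N₁ (MulAut.conj g).toMonoidHom (MulAut.conj g).injective
  have := Group.nilpotent_of_mulEquiv e1
  obtain ⟨K₁, hK₁⟩ := exists_sylow_cent hmax (N₁.map (MulAut.conj g).toMonoidHom)
    (by rw [← Nat.card_congr e1.toEquiv, h₁]) hc ⟨c₁, hc₁, hg⟩
  obtain ⟨K₂, hK₂⟩ := exists_sylow_cent hmax N₂ h₂ hc hc₂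
  obtain ⟨h, rfl⟩ := MulAction.exists_smul_eq (centralizer {c₂} : Subgroup G) K₁ K₂
  refine ⟨h * g, ?_⟩
  have e2 : (MulAut.conj (h * g : G)).toMonoidHom =
      (MulAut.conj (h : G)).toMonoidHom.comp (MulAut.conj g).toMonoidHom := by
    ext x; simp [mul_assoc]
  rw [e2, ← map_map, hK₁, hK₂, Subgroup.map_sup, MonoidHom.map_zpowers]
  congr 1
  · rw [Sylow.coe_subgroup_smul, map_map]
    ext x
    constructor
    · rintro ⟨_, ⟨y, hy, rfl⟩, rfl⟩
      exact ⟨y, hy, rfl⟩
    · rintro ⟨y, hy, rfl⟩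
      exact ⟨_, ⟨y, hy, rfl⟩, rfl⟩
  · congr 1
    have := mem_centralizer_singleton_iff.1 h.2
    simp [this]

end conj

/-- the standard embedding of `Sym (n - 3) × C₃` -/
theorem exists_emb {n : ℕ} (hn : 3 ≤ n) :
    ∃ f : Perm (Fin (n - 3)) × Multiplicative (ZMod 3) →* Perm (Fin n), Function.Injective f ∧
      ∀ x, Perm.sign (f x) = Perm.sign x.1 := by
  let e : Fin (n - 3) ⊕ Multiplicative (ZMod 3) ≃ Fin n := Fintype.equivOfCardEq (by simp; omega)
  let r := MulAction.toPermHom (Multiplicative (ZMod 3)) (Multiplicative (ZMod 3))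
  refine ⟨(Equiv.permCongrHom e).toMonoidHom.comp ((Perm.sumCongrHom _ _).comp ((MonoidHom.id _).prodMap r)),
    (Equiv.permCongrHom e).injective.comp (Perm.sumCongrHom_injective.comp
      (Function.injective_id.prodMap MulAction.toPerm_injective)), fun x => ?_⟩
  have h1 : Perm.sign (r x.2) = 1 := by
    have : Perm.sign (r x.2) ^ 3 = 1 := by
      rw [← map_pow, ← map_pow, show x.2 ^ 3 = 1 from by simpa using pow_card_eq_one' (x := x.2)]
      simp
    rcases Int.units_eq_one_or (Perm.sign (r x.2)) with h | h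
    · exact h
    · rw [h] at this; exact absurd this (by decide)
  change Perm.sign (e.permCongr (Perm.sumCongr x.1 (r x.2))) = _
  rw [Perm.sign_permCongr, Perm.sign_sumCongr, h1, mul_one]

theorem range_spec {G D : Type*} [Group G] [Group D] [Finite D] (hD : IsPGroup 2 D)
    (f : D × Multiplicative (ZMod 3) →* G) (hf : Function.Injective f) :
    Group.IsNilpotent f.range ∧ Nat.card f.range = 3 * Nat.card D ∧
      Nonempty (f.range ≃* D × Multiplicative (ZMod 3)) := by
  have := hD.isNilpotent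
  have e := MonoidHom.ofInjective hf
  refine ⟨Group.nilpotent_of_mulEquiv e, ?_, ⟨e.symm⟩⟩
  rw [← Nat.card_congr e.toEquiv, Nat.card_prod, mul_comm]
  simp

end H03.NilS
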