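import Mathlib
import Cfsg.Agent.H09.FieldPSL2

/-!
Automorphisms of `PSL(2, F)` centralising a split involution (namespace `H03.SD`):
`mk_eq`, `comm_of_sq`, `dg`, `tor`, `cent9`, `up`.
-/

set_option autoImplicit false
set_option linter.unusedSectionVars false

namespace H03.SD
open Matrix H09
open scoped MatrixGroups

variable {F : Type*} [Field F]

/-- the image in the projective group -/
abbrev mk (A : SL(2, F)) : PSL(2, F) := QuotientGroup.mk A

theorem mk_eq {A B : SL(2, F)} : mk A = mk B ↔ ∃ e : F, (e = 1 ∨ e = -1) ∧ B.1 = e • A.1 := by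
  rw [QuotientGroup.eq, Matrix.SpecialLinearGroup.mem_center_iff]
  refine exists_congr fun e => and_congr (by simp) ?_
  have h1 : A.1 * (A⁻¹).1 = 1 := by rw [← Matrix.SpecialLinearGroup.coe_mul, mul_inv_cancel]; rfl
  have h2 : (A⁻¹).1 * A.1 = 1 := by rw [← Matrix.SpecialLinearGroup.coe_mul, inv_mul_cancel]; rfl
  rw [Matrix.SpecialLinearGroup.coe_mul, scalar_apply, ← smul_one_eq_diagonal]
  refine ⟨fun h => ?_, fun h => by rw [h, Matrix.mul_smul, h2]⟩
  rw [← Matrix.one_mul B.1, ← h1, Matrix.mul_assoc, ← h]; simp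

theorem comm2 {A B M : Matrix (Fin 2) (Fin 2) F} (hM : ¬ (M 0 1 = 0 ∧ M 1 0 = 0 ∧ M 0 0 = M 1 1)) (hA : A * M = M * A)
    (hB : B * M = M * B) : A * B = B * A := by
  have a0 := congrFun (congrFun hA 0) 0
  have a1 := congrFun (congrFun hA 0) 1
  have a2 := congrFun (congrFun hA 1) 0
  have b0 := congrFun (congrFun hB 0) 0
  have b1 := congrFun (congrFun hB 0) 1
  have b2 := congrFun (congrFun hB 1) 0
  simp only [mul_apply, Fin.sum_univ_two] at a0 a1 a2 b0 b1 b2
  have k : ∀ x : F, M 0 1 * x = 0 → M 1 0 * x = 0 → (M 0 0 - M 1 1) * x = 0 → x = 0 := fun x h1 h2 h3 => by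
    by_contra c
    exact hM ⟨(mul_eq_zero.1 h1).resolve_right c, (mul_eq_zero.1 h2).resolve_right c,
      sub_eq_zero.1 ((mul_eq_zero.1 h3).resolve_right c)⟩
  have e1 : A 0 1 * B 1 0 - B 0 1 * A 1 0 = 0 := k _ (by linear_combination B 0 1 * a0 - A 0 1 * b0)
    (by linear_combination B 1 0 * a0 - A 1 0 * b0) (by linear_combination -(A 0 0 - A 1 1) * b0 - B 1 0 * a1 - B 0 1 * a2)
  have e2 : B 0 1 * (A 0 0 - A 1 1) - A 0 1 * (B 0 0 - B 1 1) = 0 := k _ (by linear_combination B 0 1 * a1 - A 0 1 * b1)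
    (by linear_combination (A 0 0 - A 1 1) * b0 + B 1 0 * a1 + A 0 1 * b2)
    (by linear_combination (B 0 0 - B 1 1) * a1 - (A 0 0 - A 1 1) * b1)
  have e3 : A 1 0 * (B 0 0 - B 1 1) - B 1 0 * (A 0 0 - A 1 1) = 0 :=
    k _ (by linear_combination -(B 0 0 - B 1 1) * a0 - B 1 0 * a1 - A 0 1 * b2)
    (by linear_combination B 1 0 * a2 - A 1 0 * b2) (by linear_combination (B 0 0 - B 1 1) * a2 - (A 0 0 - A 1 1) * b2)
  ext i j
  fin_cases i <;> fin_cases j <;> simp only [mul_apply, Fin.sum_univ_two, Fin.zero_eta, Fin.mk_one]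
  · linear_combination e1
  · linear_combination e2
  · linear_combination e3
  · linear_combination -e1

theorem comm_of_sq [Finite F] (p : ℕ) [Fact p.Prime] [CharP F p] {g h : GL (Fin 2) F} {γ : PSL(2, F)} (h1 : γ ≠ 1)
    (hg : pslD g * pslD g = MulAut.conj γ) (hh : pslD h * pslD h = MulAut.conj γ) : pslD g * pslD h = pslD h * pslD g := by
  obtain ⟨T, rfl⟩ := QuotientGroup.mk_surjective γ
  have k : ∀ g : GL (Fin 2) F, pslD g * pslD g = MulAut.conj (mk T) → g.1 * T.1 = T.1 * g.1 := fun g hg => by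
    rw [← pslD_toGL, ← map_mul, ← inv_mul_eq_one, ← map_inv, ← map_mul, ← MonoidHom.mem_ker, ker_pslD p] at hg
    have := Subgroup.mem_center_iff.1 hg g
    have e : g * SpecialLinearGroup.toGL T = SpecialLinearGroup.toGL T * g := by
      calc _ = g * g * (g * ((g * g)⁻¹ * SpecialLinearGroup.toGL T)) := by group
        _ = _ := by rw [this]; group
    exact congrArg Units.val e
  rw [← map_mul, ← map_mul]
  congr 1
  refine Units.ext (comm2 (fun ⟨e1, e2, e3⟩ => h1 ?_) (k g hg) (k h hh))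
  refine (QuotientGroup.eq_one_iff T).2 (Subgroup.mem_center_iff.2 fun B => Subtype.ext ?_)
  ext i j
  fin_cases i <;> fin_cases j <;> simp [mul_apply, Fin.sum_univ_two, e1, e2, e3, mul_comm]

/-- diagonal matrices of determinant one -/
def dg : Fˣ →* SL(2, F) := MonoidHom.mk' (fun a => ⟨!![(a : F), 0; 0, (a⁻¹ : Fˣ)], by simp [det_fin_two]⟩) fun a b =>
  Subtype.ext (by
    show !![((a * b : Fˣ) : F), 0; 0, ((a * b)⁻¹ : Fˣ)] = !![(a : F), 0; 0, (a⁻¹ : Fˣ)] * !![(b : F), 0; 0, (b⁻¹ : Fˣ)]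
    simp [mul_comm])

theorem dg_val (a : Fˣ) : (dg a).1 = !![(a : F), 0; 0, (a : F)⁻¹] := by
  show !![(a : F), 0; 0, (a⁻¹ : Fˣ)] = _
  simp

theorem sq_unit {a : Fˣ} : a ^ 2 = 1 ↔ a = 1 ∨ a = -1 := by
  simp only [Units.ext_iff, Units.val_pow_eq_pow_val, Units.val_one, Units.val_neg, _root_.sq_eq_one_iff]

theorem mk_dg_eq_one {a : Fˣ} : mk (dg a) = 1 ↔ a ^ 2 = 1 := by
  rw [← QuotientGroup.mk_one, eq_comm, mk_eq, sq_unit]
  refine ⟨fun ⟨e, he, h⟩ => ?_, fun h => ?_⟩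
  · have := congrFun (congrFun h 0) 0
    simp [dg_val] at this
    exact he.imp (fun e => Units.ext (this.trans e)) fun e => Units.ext (this.trans e)
  · rcases h with rfl | rfl
    · exact ⟨1, .inl rfl, by simp⟩
    · refine ⟨-1, .inr rfl, ?_⟩
      ext i j
      fin_cases i <;> fin_cases j <;> simp [dg_val]

theorem fix_iff (g : GL (Fin 2) F) (σ : RingAut F) {A : SL(2, F)} (h : (pslD g * pslF σ : MulAut PSL(2, F)) (mk A) = mk A) :
    ∃ e : F, (e = 1 ∨ e = -1) ∧ A.1 * g.1 = e • (g.1 * A.1.map σ) := by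
  rw [MulAut.mul_apply, pslF_mk, pslD_mk] at h
  obtain ⟨e, he, h⟩ := mk_eq.1 h
  refine ⟨e, he, ?_⟩
  nth_rw 1 [h]
  rw [slConj_val, slField_val, Matrix.smul_mul, Matrix.mul_assoc, Units.inv_mul, Matrix.mul_one]

theorem shape {g : Matrix (Fin 2) (Fin 2) F} (hg : g.det ≠ 0) (h2 : (2 : F) ≠ 0) {ι : Fˣ} (hι : (ι : F) * ι = -1) {e : F}
    (he : e = 1 ∨ e = -1) (h : (dg ι).1 * g = e • (g * (dg ι).1)) :
    (g 0 1 = 0 ∧ g 1 0 = 0 ∧ g 0 0 ≠ 0) ∨ (g 0 0 = 0 ∧ g 1 1 = 0 ∧ g 0 1 ≠ 0) := by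
  have i : (ι : F)⁻¹ = -ι := inv_eq_of_mul_eq_one_right (by rw [mul_neg, hι, neg_neg])
  have a0 := congrFun (congrFun h 0) 0
  have a1 := congrFun (congrFun h 0) 1
  have a2 := congrFun (congrFun h 1) 0
  have a3 := congrFun (congrFun h 1) 1
  simp [dg_val, i, mul_apply, Fin.sum_univ_two] at a0 a1 a2 a3
  have k : ∀ x : F, 2 * ι * x = 0 → x = 0 := fun x h => (mul_eq_zero.1 h).resolve_left (mul_ne_zero h2 ι.ne_zero)
  rw [det_fin_two] at hg
  rcases he with rfl | rfl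
  · have e1 := k (g 0 1) (by linear_combination a1)
    have e2 := k (g 1 0) (by linear_combination -a2)
    exact .inl ⟨e1, e2, fun e => hg (by simp [e, e1])⟩
  · have e1 := k (g 0 0) (by linear_combination a0)
    have e2 := k (g 1 1) (by linear_combination a3)
    exact .inr ⟨e1, e2, fun e => hg (by simp [e, e1])⟩

theorem tor (h2 : (2 : F) ≠ 0) {ι : Fˣ} (hι : (ι : F) * ι = -1) (g : GL (Fin 2) F) (σ : RingAut F)
    (h : (pslD g * pslF σ : MulAut PSL(2, F)) (mk (dg ι)) = mk (dg ι)) {a : Fˣ} (ha : (pslD g * pslF σ : MulAut PSL(2, F)) (mk (dg a)) = mk (dg a)) :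
    (σ a) ^ 2 = a ^ 2 ∨ (σ a) ^ 2 * a ^ 2 = 1 := by
  obtain ⟨e, he, h⟩ := fix_iff g σ h
  obtain ⟨f, hf, ha⟩ := fix_iff g σ ha
  have i : (ι : F)⁻¹ = -ι := inv_eq_of_mul_eq_one_right (by rw [mul_neg, hι, neg_neg])
  obtain ⟨e', he', s⟩ : ∃ e' : F, (e' = 1 ∨ e' = -1) ∧ (dg ι).1.map σ = e' • (dg ι).1 := by
    have : σ ι * σ ι = ι * ι := by rw [← map_mul, hι]; simp
    rcases mul_self_eq_mul_self_iff.1 this with s | s
    · exact ⟨1, .inl rfl, by ext i j; fin_cases i <;> fin_cases j <;> simp [dg_val, s]⟩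
    · exact ⟨-1, .inr rfl, by ext i j; fin_cases i <;> fin_cases j <;> simp [dg_val, s, inv_neg]⟩
  rw [s, Matrix.mul_smul, smul_smul] at h
  have f2 : f * f = 1 := by rcases hf with rfl | rfl <;> simp
  have a0 := congrFun (congrFun ha 0) 0
  have a1 := congrFun (congrFun ha 0) 1
  simp [dg_val, mul_apply, Fin.sum_univ_two] at a0 a1
  rcases shape g.det_ne_zero h2 hι (by rcases he with rfl | rfl <;> rcases he' with rfl | rfl <;> simp) h with
    ⟨-, -, n⟩ | ⟨-, -, n⟩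
  · have : (a : F) = f * σ a := mul_right_cancel₀ n (by linear_combination a0)
    left; linear_combination (-(a : F) - f * σ a) * this - (σ a) ^ 2 * f2
  · have n2 : σ a ≠ 0 := (map_ne_zero σ).2 a.ne_zero
    have : (a : F) * σ a = f := by field_simp at a1; exact a1
    right; linear_combination ((a : F) * σ a + f) * this + f2

theorem cent9 [Fintype F] (hF : Fintype.card F = 9) (h2 : (2 : F) ≠ 0) {ι : Fˣ} (hι : (ι : F) * ι = -1) {γ : PSL(2, F)}
    (h : γ * mk (dg ι) = mk (dg ι) * γ) : γ ^ 8 = 1 := by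
  obtain ⟨B, rfl⟩ := QuotientGroup.mk_surjective γ
  obtain ⟨e, he, h⟩ := mk_eq.1 h
  have d := B.2
  rw [← QuotientGroup.mk_pow]
  suffices B ^ 8 = 1 by rw [this]; rfl
  have p8 : ∀ x : F, x ≠ 0 → x ^ 8 = 1 := fun x hx => by simpa [hF] using FiniteField.pow_card_sub_one_eq_one x hx
  rcases shape (g := B.1) (by rw [d]; exact one_ne_zero) h2 hι he h with ⟨e1, e2, n⟩ | ⟨e1, e2, n⟩ <;> rw [det_fin_two, e1, e2] at d
  · have : B = dg (Units.mk0 _ n) := by
      ext i j
      fin_cases i <;> fin_cases j <;> simp [dg_val, e1, e2]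
      exact eq_inv_of_mul_eq_one_right (by linear_combination d)
    rw [this, ← map_pow, show Units.mk0 _ n ^ 8 = 1 from Units.ext (p8 _ n), map_one]
  · have : B ^ 2 = -1 := by
      ext i j
      fin_cases i <;> fin_cases j <;> simp [pow_two, mul_apply, Fin.sum_univ_two, e1, e2] <;> linear_combination -d
    rw [show 8 = 2 * 4 from rfl, pow_mul, this]; norm_num

/-- upper unitriangular matrices -/
def up : Multiplicative F →* PSL(2, F) := MonoidHom.mk'
  (fun x => mk (SpecialLinearGroup.transvection (show (0 : Fin 2) ≠ 1 by decide) x.toAdd)) fun x y => by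
    rw [toAdd_mul, transvection_add]; rfl

theorem up_inj : Function.Injective (up (F := F)) := fun x y e => mk_transvection_inj (a := x.toAdd) (b := y.toAdd) _ e

theorem dg_up (a : Fˣ) (x : Multiplicative F) :
    mk (dg a) * up x * (mk (dg a))⁻¹ = up (.ofAdd (a * a * x.toAdd)) := by
  rw [mul_inv_eq_iff_eq_mul]
  refine congrArg mk (Subtype.ext ?_)
  show (dg a).1 * Matrix.transvection 0 1 x.toAdd = Matrix.transvection 0 1 (a * a * x.toAdd) * (dg a).1
  ext i j
  fin_cases i <;> fin_cases j <;> simp [dg_val, mul_apply, Fin.sum_univ_two, Matrix.transvection, Matrix.single, one_apply]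
  field_simp

end H03.SD
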