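import Mathlib
import Cfsg.Agent.H03.LX1
import Cfsg.Prelude.Def_KGroupFacts

/-!
Extraspecial 2-groups (namespace H03): the automorphism `sig` lifting a transvection, and Griess' non-splitting theorem
`not_split` for `Aut(2^{1+2n})`, `n ≥ 3`.
-/

set_option autoImplicit false
open Cfsg BG H04 Subgroup
open scoped commutatorElement

namespace H03

variable {G : Type*} [Group G] {u v w x y z : G}

theorem aes_anti (h : AES 2 ⊤ z) (hc : ¬ Commute x y) : x * y = y * x * z := by
  rw [← (h.commute (mem_zpowers z) (mem_top _)).eq.symm, ← h.comm_eq (mem_top x) (mem_top y) hc, commutatorElement_def]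
  group

theorem aes_commute_mul (h : AES 2 ⊤ z) : Commute (x * y) v ↔ (Commute x v ↔ Commute y v) := by
  by_cases h1 : Commute x v <;> by_cases h2 : Commute y v <;> simp only [h1, h2, iff_true, iff_false, not_true]
  · exact h1.mul_left h2
  · exact fun e => h2 (by simpa using h1.inv_left.mul_left (b := x * y) e)
  · exact fun e => h1 (by simpa using e.mul_left h2.inv_left)
  · show x * y * v = v * (x * y)
    rw [mul_assoc, aes_anti h h2, ← mul_assoc, ← mul_assoc, aes_anti h h1, mul_assoc (v * x), ← (h.commute (mem_zpowers z) (mem_top y)).eq,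
      mul_assoc, mul_assoc y, h.mul_self, mul_one, mul_assoc]

open Classical in
/-- the automorphism lifting the transvection with centre `v` -/
noncomputable def sig (h : AES 2 ⊤ z) (hv : v * v = z) : MulAut G where
  toFun x := if Commute x v then x else x * v
  invFun x := if Commute x v then x else x * v⁻¹
  left_inv x := by by_cases e : Commute x v <;> simp [e, aes_commute_mul h]
  right_inv x := by by_cases e : Commute x v <;> simp [e, aes_commute_mul h]
  map_mul' x y := by
    by_cases h1 : Commute x v <;> by_cases h2 : Commute y v <;> simp only [aes_commute_mul h, h1, h2, iff_true, iff_false, if_true,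
      if_false, not_true, mul_assoc]
    · rw [h2.eq]
    · rw [← mul_assoc v, aes_anti h fun e => h2 e.symm, mul_assoc, mul_assoc, ← (h.commute (mem_zpowers z) (mem_top v)).eq,
        ← mul_assoc v, hv, h.mul_self, mul_one]

theorem sig_of (h : AES 2 ⊤ z) (hv : v * v = z) (e : Commute x v) : sig h hv x = x := if_pos e

theorem sig_not (h : AES 2 ⊤ z) (hv : v * v = z) (e : ¬ Commute x v) : sig h hv x = x * v := if_neg e

theorem sig_sq (h : AES 2 ⊤ z) (hv : v * v = z) : sig h hv * sig h hv = MulAut.conj v := by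
  ext x
  by_cases e : Commute x v
  · simp [sig_of h hv e, ← e.eq]
  · rw [MulAut.mul_apply, sig_not h hv e, map_mul, sig_not h hv e, sig_of h hv (Commute.refl v), MulAut.conj_apply,
      aes_anti h fun e' => e e'.symm, ← hv]
    group

theorem sig_comm (h : AES 2 ⊤ z) (hv : v * v = z) (hu : u * u = z) (e : Commute u v) : Commute (sig h hu) (sig h hv) := by
  ext x
  by_cases h1 : Commute x v <;> by_cases h2 : Commute x u <;>
    simp [sig_of, sig_not, h1, h2, e, e.symm, mul_assoc, e.eq]

theorem conj_mul_aut (a : MulAut G) (x : G) : a * MulAut.conj x = MulAut.conj (a x) * a := by ext; simp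

theorem center_of_conj_eq (e : MulAut.conj x = MulAut.conj y) : y⁻¹ * x ∈ center G := mem_center_iff.2 fun g => by
  have := DFunLike.congr_fun e g
  simp only [MulAut.conj_apply] at this
  rw [show y⁻¹ * x * g = y⁻¹ * (x * g * x⁻¹) * x by group, this]
  group

/-- Griess' non-splitting theorem -/
theorem not_split [Finite G] (h : AES 2 ⊤ z) (hc : center G ≤ zpowers z) {n : ℕ} (hn : 3 ≤ n) (hG : Nat.card G = 2 ^ (2 * n + 1))
    (L : Subgroup (MulAut G)) : ¬ (Inn G).IsComplement' L := fun hL => by
  have k1 : ∀ {v} (hv : v * v = z), ∃ w, MulAut.conj w * sig h hv ∈ L := fun hv => by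
    obtain ⟨⟨⟨_, w, rfl⟩, l⟩, e, -⟩ := hL.existsUnique (sig h hv)
    exact ⟨w⁻¹, by rw [← e, map_inv, inv_mul_cancel_left]; exact l.2⟩
  have k2 : ∀ x, MulAut.conj x ∈ L → x ∈ center G := fun x hx => by
    simpa using center_of_conj_eq (y := 1) ((disjoint_def.1 hL.disjoint ⟨x, rfl⟩ hx).trans (map_one _).symm)
  have sq : ∀ x : G, x * x ∈ center G := fun x => inf_cent_top.le (h.zpowers_le (pow_two x ▸ h.pow x (mem_top x)))
  have cm : ∀ x y : G, ⁅x, y⁆ ∈ center G := fun x y => inf_cent_top.le (h.zpowers_le (h.comm x (mem_top x) y (mem_top y)))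
  have hc' : (⊤ : Subgroup G) ⊓ C_((⊤ : Subgroup G)) ≤ zpowers z := inf_cent_top.le.trans hc
  have ct : Nat.card (⊤ : Subgroup G) = 2 ^ (2 * n + 1) := by rwa [card_top]
  have zc : ∀ {v}, v * v = z → v ∉ center G := fun hv e => h.ne_one (by
    rcases h.eq_or (hc e) with rfl | rfl
    · simpa using hv.symm
    · simpa using hv)
  obtain ⟨v, hv⟩ : ∃ v, v * v = z := by
    by_contra! e
    have h1 := h.sqCount_add
    have h2 : sqCount ⊤ z = 0 := by simp [sqCount, pow_two, e]
    have h3 : 2 ^ n < 2 ^ (2 * n) := Nat.pow_lt_pow_right one_lt_two (by omega)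
    have h5 := Nat.two_pow_pos n
    rcases h.sqCount_of_center hc' ct with h4 | h4 <;> rw [ct, pow_succ] at h1 <;> omega
  obtain ⟨w, hw⟩ := k1 hv
  have h1 : ¬ Commute w v := fun e => zc hv ((mul_mem_cancel_left (sq w)).1 (k2 _ (by
    have := mul_mem hw hw
    rwa [mul_assoc, ← mul_assoc (sig h hv), conj_mul_aut, sig_of h hv e, mul_assoc, sig_sq, ← map_mul, ← map_mul,
      ← mul_assoc] at this)))
  obtain ⟨m, rfl, hm⟩ := h.card_spl (mem_top w) (mem_top v) h1 ct
  have h2 := (h.center_spl (mem_top w) (mem_top v) h1).le.trans hc'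
  obtain ⟨A, hA, a1, a2, -⟩ := (h.spl (mem_top w) (mem_top v)).exists_elemAb h2 m hm
  obtain ⟨s, hs, s1⟩ : ∃ s ∈ A, s ∉ zpowers z := SetLike.not_le_iff_exists.1 fun e => by
    have := card_le e
    rw [Nat.card_zpowers, h.ord] at this
    have : 2 ^ 2 ≤ 2 ^ m := Nat.pow_le_pow_right two_pos (by omega)
    omega
  obtain ⟨-, s2, s3⟩ := mem_spl.1 (hA hs)
  have hu : v * s * (v * s) = z := by rw [s3.mul_mul_mul_comm, hv, ← pow_two, a1.2 s hs, mul_one]
  obtain ⟨y, hy⟩ := k1 hu
  have h3 : ¬ Commute w (v * s) := fun e => h1 (by simpa using e.mul_right s2.symm.inv_right)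
  have h4 := mul_mem (mul_mem hy hw) (inv_mem (mul_mem hw hy))
  rw [mul_assoc (MulAut.conj y), ← mul_assoc (sig h hu), conj_mul_aut, mul_assoc (MulAut.conj w), ← mul_assoc (sig h hv), conj_mul_aut,
    mul_assoc (MulAut.conj _) (sig h hv), ← (sig_comm h hv hu ((Commute.refl v).mul_left s3)).eq, sig_not h hu h3] at h4
  have h5 := k2 (y * (w * (v * s)) * (w * sig h hv y)⁻¹) (by simpa [mul_assoc] using h4)
  let f := QuotientGroup.mk' (center G)
  have fc : ∀ a b, f a * f b = f b * f a := fun a b => by
    rw [← commutatorElement_eq_one_iff_mul_comm, ← map_commutatorElement]; exact (QuotientGroup.eq_one_iff _).2 (cm a b)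
  have h6 : f y * (f w * (f v * f s)) = f w * f (sig h hv y) := by
    simpa [f, mul_inv_eq_one, ← mul_assoc, mul_inv_eq_iff_eq_mul] using (QuotientGroup.eq_one_iff _).2 h5
  rw [← mul_assoc, fc y, mul_assoc, mul_right_inj] at h6
  by_cases e : Commute y v
  · rw [sig_of h hv e, mul_eq_left, ← map_mul] at h6
    exact zc hu ((QuotientGroup.eq_one_iff _).1 h6)
  · rw [sig_not h hv e, map_mul, mul_right_inj, mul_eq_left] at h6
    exact s1 (hc ((QuotientGroup.eq_one_iff _).1 h6))

end H03
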