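import Mathlib
import Cfsg.Agent.H03.XG1
import Cfsg.Prelude.Def_Classical

/-!
Extraspecial 2-groups (namespace H03): the model `XG B` attached to a matrix `B` over `ZMod 2`, its outer automorphism group
(`XG.out_equiv`), the plus and minus type models.
-/

set_option autoImplicit false
open Cfsg BG H04 Subgroup Matrix
open scoped commutatorElement

namespace H03

/-- the central extension of `ι → ZMod 2` by `ZMod 2` with cocycle `B` -/
@[ext] structure XG {ι : Type} (B : Matrix ι ι (ZMod 2)) where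
  v : ι → ZMod 2
  c : ZMod 2

theorem outCongr {G H : Type*} [Group G] [Group H] (e : G ≃* H) : Nonempty (Out G ≃* Out H) :=
  ⟨QuotientGroup.congr _ _ (MulAut.congr e) (le_antisymm (by
    rintro _ ⟨_, ⟨g, rfl⟩, rfl⟩; exact ⟨e g, by ext; simp⟩) (by
    rintro _ ⟨g, rfl⟩; exact ⟨_, ⟨e.symm g, rfl⟩, by ext; simp⟩))⟩

theorem z2_add (a : ZMod 2) : a + a = 0 := CharTwo.add_self_eq_zero a

theorem exists_half {ι : Type} [Fintype ι] [DecidableEq ι] (M : Matrix ι ι (ZMod 2)) (h : ∀ v, v ⬝ᵥ M *ᵥ v = 0) :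
    ∃ N : Matrix ι ι (ZMod 2), N + Nᵀ = M := by
  let _ := LinearOrder.lift' _ (Fintype.equivFin ι).injective
  have h1 : ∀ i, M i i = 0 := fun i => by simpa using h (Pi.single i 1)
  have h2 : ∀ i j, M i j = M j i := fun i j => by
    have := h (Pi.single i 1 + Pi.single j 1)
    simp only [mulVec_add, add_dotProduct, dotProduct_add, mulVec_single_one, single_one_dotProduct, col_apply, h1, zero_add,
      add_zero] at this
    rw [eq_neg_of_add_eq_zero_left this, ZMod.neg_eq_self_mod_two]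
  refine ⟨of fun i j => if i < j then M i j else 0, ?_⟩
  ext i j
  rcases lt_trichotomy i j with e | rfl | e
  · simp [e, e.not_gt]
  · simp [h1]
  · simp [e, e.not_gt, h2 i j]

namespace XG

variable {ι : Type} [Fintype ι] {B : Matrix ι ι (ZMod 2)}

instance : Mul (XG B) := ⟨fun x y => ⟨x.v + y.v, x.c + y.c + x.v ⬝ᵥ B *ᵥ y.v⟩⟩
instance : One (XG B) := ⟨⟨0, 0⟩⟩
instance : Inv (XG B) := ⟨fun x => ⟨x.v, x.c + x.v ⬝ᵥ B *ᵥ x.v⟩⟩

@[simp] theorem mul_v (x y : XG B) : (x * y).v = x.v + y.v := rfl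
@[simp] theorem mul_c (x y : XG B) : (x * y).c = x.c + y.c + x.v ⬝ᵥ B *ᵥ y.v := rfl
omit [Fintype ι] in
@[simp] theorem one_v : (1 : XG B).v = 0 := rfl
omit [Fintype ι] in
@[simp] theorem one_c : (1 : XG B).c = 0 := rfl
@[simp] theorem inv_v (x : XG B) : x⁻¹.v = x.v := rfl
@[simp] theorem inv_c (x : XG B) : x⁻¹.c = x.c + x.v ⬝ᵥ B *ᵥ x.v := rfl

omit [Fintype ι] in
@[simp] theorem vv (v : ι → ZMod 2) : v + v = 0 := funext fun i => z2_add (v i)

instance : Group (XG B) := Group.ofLeftAxioms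
  (fun x y w => XG.ext (add_assoc _ _ _) (by simp [add_dotProduct, dotProduct_add, mulVec_add]; ring))
  (fun x => XG.ext (by simp) (by simp))
  (fun x => XG.ext (by simp) (by simp; linear_combination z2_add x.c + z2_add (x.v ⬝ᵥ B *ᵥ x.v)))

/-- the underlying set -/
def equivProd : XG B ≃ (ι → ZMod 2) × ZMod 2 := ⟨fun x => (x.v, x.c), fun y => ⟨y.1, y.2⟩, fun _ => rfl, fun _ => rfl⟩

instance : Finite (XG B) := Finite.of_equiv _ equivProd.symm

theorem card : Nat.card (XG B) = 2 ^ (Fintype.card ι + 1) := by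
  rw [Nat.card_congr equivProd, Nat.card_prod, Nat.card_fun, Nat.card_zmod, Nat.card_eq_fintype_card, pow_succ]

/-- the central involution -/
def z : XG B := ⟨0, 1⟩

theorem mem_z {x : XG B} : x ∈ zpowers z ↔ x.v = 0 := by
  refine ⟨fun h => (zpowers_le (H := ⟨⟨⟨{x : XG B | x.v = 0}, fun ha hb => by simp_all⟩, rfl⟩, fun h => h⟩)).2 rfl h, fun h => ?_⟩
  rcases (by decide : ∀ c : ZMod 2, c = 0 ∨ c = 1) x.c with e | e
  · exact (XG.ext h e : x = 1) ▸ one_mem _
  · exact (XG.ext h e : x = z) ▸ mem_zpowers _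

theorem aes : AES 2 (⊤ : Subgroup (XG B)) z :=
  ⟨orderOf_eq_prime (XG.ext (by simp [pow_two]) (by simp [pow_two, z, z2_add])) fun e => one_ne_zero (congrArg XG.c e),
    mem_top _, fun x _ => XG.ext (by simp [z]) (by simp [z, add_comm]),
    fun x _ y _ => mem_z.2 (by simp [commutatorElement_def, add_right_comm _ y.v]), fun x _ => mem_z.2 (by simp [pow_two])⟩

theorem commute_iff {x y : XG B} : Commute x y ↔ x.v ⬝ᵥ (B + Bᵀ) *ᵥ y.v = 0 := by
  rw [add_mulVec, dotProduct_add, mulVec_transpose, dotProduct_comm _ (vecMul _ _), ← dotProduct_mulVec, commute_iff_eq, XG.ext_iff]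
  simp only [mul_v, mul_c, add_comm x.v, add_comm x.c, true_and, add_right_inj, CharTwo.add_eq_zero]

theorem exists_elem {m : ℕ} (f : (Fin m → ZMod 2) →+ (ι → ZMod 2)) (hf : Function.Injective f) (h0 : ∀ a b, f a ⬝ᵥ B *ᵥ f b = 0) :
    ∃ A : Subgroup (XG B), IsElementaryAbelian 2 A ∧ Nat.card A = 2 ^ (m + 1) ∧ ∀ x ∈ A, ∃ a, x.v = f a := by
  let φ : Multiplicative ((Fin m → ZMod 2) × ZMod 2) →* XG B :=
    MonoidHom.mk' (fun x => ⟨f x.toAdd.1, x.toAdd.2⟩) fun x y => XG.ext (by simp) (by simp [h0])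
  have hφ : Function.Injective φ := fun x y e =>
    Multiplicative.toAdd.injective (Prod.ext (hf (congrArg XG.v e)) (congrArg XG.c e))
  refine ⟨φ.range, ⟨abelian_iff.2 (le_cent_iff.2 ?_), ?_⟩, ?_, ?_⟩
  · rintro _ ⟨x, rfl⟩ _ ⟨y, rfl⟩
    rw [← map_mul, ← map_mul, mul_comm]
  · rintro _ ⟨x, rfl⟩
    exact XG.ext (by simp [pow_two]) (by simp [pow_two, φ, h0, z2_add])
  · rw [← Nat.card_congr (MonoidHom.ofInjective hφ).toEquiv]
    simp [pow_succ]
  · rintro _ ⟨x, rfl⟩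
    exact ⟨_, rfl⟩

variable [DecidableEq ι] (h : ∀ v, (B + Bᵀ) *ᵥ v = 0 → v = 0)
include h

theorem center_le : center (XG B) ≤ zpowers z := fun x hx => mem_z.2 (h _ (funext fun i => by
  simpa using commute_iff.1 (mem_center_iff.1 hx ⟨Pi.single i 1, 0⟩)))

theorem extraspecial [Nonempty ι] : IsExtraspecial 2 (XG B) :=
  isExtraspecial_of_aes_top aes (center_le h) fun e => by
    obtain ⟨i⟩ := ‹Nonempty ι›
    simpa using congrFun (mem_z.1 (center_le h (mem_center_iff.2 fun g => e.1.1 g ⟨Pi.single i 1, 0⟩))) i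

theorem aut_z (a : MulAut (XG B)) : a z = z :=
  (aes.eq_or (center_le h (mem_center_iff.2 fun g => by
    obtain ⟨g, rfl⟩ := a.surjective g
    rw [← map_mul, ← map_mul, aes.cent g (mem_top g)]))).resolve_left fun e => aes.ne_one (a.map_eq_one_iff.1 e)

theorem aut_of_v (a : MulAut (XG B)) {x : XG B} (hx : x.v = 0) : a x = x := by
  rcases aes.eq_or (mem_z.2 hx) with rfl | rfl
  · exact map_one a
  · exact aut_z h a

theorem aut_v (a : MulAut (XG B)) (x : XG B) : (a x).v = (a ⟨x.v, 0⟩).v := by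
  rw [show x = ⟨x.v, 0⟩ * ⟨0, x.c⟩ from XG.ext (by simp) (by simp), map_mul, aut_of_v h a (x := ⟨0, x.c⟩) rfl]
  simp

/-- the action on the Frattini quotient -/
def lin : MulAut (XG B) →* Module.End (ZMod 2) (ι → ZMod 2) where
  toFun a := (AddMonoidHom.mk' (fun v => (a ⟨v, 0⟩).v) fun v w => by
    rw [← mul_v, ← map_mul, aut_v h a (_ * _)]; rfl).toZModLinearMap 2
  map_one' := rfl
  map_mul' a b := LinearMap.ext fun v => aut_v h a _

/-- the action on the Frattini quotient, as a matrix -/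
noncomputable def mat : MulAut (XG B) →* GL ι (ZMod 2) :=
  ((LinearMap.toMatrixAlgEquiv'.toMulEquiv.toMonoidHom).comp (lin h)).toHomUnits

theorem mat_mulVec (a : MulAut (XG B)) (x : XG B) : (mat h a).1 *ᵥ x.v = (a x).v :=
  (LinearMap.toMatrix'_mulVec (lin h a) x.v).trans (aut_v h a x).symm

theorem mat_ker : (mat h).ker = Inn (XG B) := by
  refine le_antisymm (fun a ha => ?_) ?_
  · have h1 : ∀ x, (a x).v = x.v := fun x => by rw [← mat_mulVec h, MonoidHom.mem_ker.1 ha]; simp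
    let f : (ι → ZMod 2) →ₗ[ZMod 2] ZMod 2 := (AddMonoidHom.mk' (fun v => (a ⟨v, 0⟩).c) fun v w => by
      have := congrArg XG.c (map_mul a ⟨v, 0⟩ ⟨w, 0⟩)
      rw [show (⟨v, 0⟩ * ⟨w, 0⟩ : XG B) = ⟨v + w, 0⟩ * ⟨0, v ⬝ᵥ B *ᵥ w⟩ from XG.ext (by simp) (by simp), map_mul,
        aut_of_v h a (x := ⟨0, _⟩) rfl] at this
      simpa [h1] using this).toZModLinearMap 2
    obtain ⟨w, hw⟩ := Finite.surjective_of_injective (f := (B + Bᵀ).mulVecLin)
      ((injective_iff_map_eq_zero _).2 h) fun i => f (Pi.single i 1)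
    refine ⟨⟨w, 0⟩, MulEquiv.ext fun x => XG.ext (by simp [h1, add_right_comm w]) ?_⟩
    have h2 : x.v ⬝ᵥ (B + Bᵀ) *ᵥ w = f x.v := by
      rw [show (B + Bᵀ) *ᵥ w = _ from hw]
      conv_rhs => rw [pi_eq_sum_univ' x.v]
      simp [dotProduct]
    have h3 : (a x).c = x.c + f x.v := by
      conv_lhs => rw [show x = ⟨x.v, 0⟩ * ⟨0, x.c⟩ from XG.ext (by simp) (by simp), map_mul, aut_of_v h a (x := ⟨0, x.c⟩) rfl]
      simp [f, add_comm]
    rw [h3, ← h2, add_mulVec, dotProduct_add, mulVec_transpose, dotProduct_comm _ (vecMul _ _), ← dotProduct_mulVec]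
    simp [add_dotProduct]
    linear_combination z2_add (w ⬝ᵥ B *ᵥ w)
  · rintro _ ⟨g, rfl⟩
    refine Units.ext (Matrix.ext_iff_mulVec.2 fun v => (mat_mulVec h _ ⟨v, 0⟩).trans ?_)
    simp [add_right_comm g.v v]

theorem mat_range : (mat h).range = isometryGroup (ZMod 2) fun v => v ⬝ᵥ B *ᵥ v := by
  refine le_antisymm ?_ fun g hg => ?_
  · rintro _ ⟨a, rfl⟩ v -
    have := congrArg XG.c (map_mul a ⟨v, 0⟩ ⟨v, 0⟩)
    rw [aut_of_v h a (by simp)] at this
    simpa [z2_add, ← mat_mulVec h a] using this.symm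
  have k : ∀ v w, (g.1 *ᵥ v) ⬝ᵥ B *ᵥ (g.1 *ᵥ w) = v ⬝ᵥ (g.1ᵀ * B * g.1) *ᵥ w := fun v w => by
    rw [← mulVec_mulVec, ← mulVec_mulVec, dotProduct_mulVec v, vecMul_transpose]
  obtain ⟨N, hN⟩ := exists_half (g.1ᵀ * B * g.1 + B) fun v => by
    rw [add_mulVec, dotProduct_add, ← k]; exact CharTwo.add_eq_zero.2 (hg v 0)
  let f : XG B →* XG B := MonoidHom.mk' (fun x => ⟨g.1 *ᵥ x.v, x.c + x.v ⬝ᵥ N *ᵥ x.v⟩) fun x y => XG.ext (by simp [mulVec_add]) (by
    have := congrArg (fun M => x.v ⬝ᵥ M *ᵥ y.v) hN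
    simp only [add_mulVec, dotProduct_add, mulVec_transpose, dotProduct_comm _ (vecMul _ _), ← dotProduct_mulVec, ← k] at this
    simp only [mul_v, mul_c, mulVec_add, dotProduct_add, add_dotProduct]
    linear_combination this + z2_add (x.v ⬝ᵥ B *ᵥ y.v))
  have hf : Function.Injective f := (injective_iff_map_eq_one f).2 fun x hx => by
    have h1 : x.v = 0 := by
      simpa using congrArg (fun v => g⁻¹.1 *ᵥ v) (show g.1 *ᵥ x.v = 0 from congrArg XG.v hx)
    exact XG.ext h1 (by simpa [f, h1] using congrArg XG.c hx)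
  exact ⟨MulEquiv.ofBijective f (Finite.injective_iff_bijective.1 hf),
    Units.ext (Matrix.ext_iff_mulVec.2 fun v => mat_mulVec h _ ⟨v, 0⟩)⟩

theorem out_equiv : Nonempty (Out (XG B) ≃* isometryGroup (ZMod 2) fun v => v ⬝ᵥ B *ᵥ v) :=
  ⟨(QuotientGroup.quotientMulEquivOfEq (mat_ker h).symm).trans
    ((QuotientGroup.quotientKerEquivRange _).trans (MulEquiv.subgroupCongr (mat_range h)))⟩

end XG

/-- plus type -/
def Bp (m : ℕ) : Matrix (Fin m ⊕ Fin m) (Fin m ⊕ Fin m) (ZMod 2) := fromBlocks 0 1 0 0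

/-- minus type -/
def Bm (m : ℕ) : Matrix ((Fin m ⊕ Fin m) ⊕ Fin 2) ((Fin m ⊕ Fin m) ⊕ Fin 2) (ZMod 2) := fromBlocks (Bp m) 0 0 !![1, 1; 0, 1]

variable {m : ℕ}

theorem Bp_eq (v w) : v ⬝ᵥ Bp m *ᵥ w = ∑ i, v (.inl i) * w (.inr i) := by
  simp [Bp, fromBlocks_mulVec, dotProduct, Fintype.sum_sum_type]

theorem Bm_eq (v w) : v ⬝ᵥ Bm m *ᵥ w = ∑ i, v (.inl (.inl i)) * w (.inl (.inr i)) +
    (v (.inr 0) * w (.inr 0) + v (.inr 0) * w (.inr 1) + v (.inr 1) * w (.inr 1)) := by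
  simp [Bm, Bp, fromBlocks_mulVec, dotProduct, Fintype.sum_sum_type, mul_add]

theorem Bp_nd (v) (h : (Bp m + (Bp m)ᵀ) *ᵥ v = 0) : v = 0 := by
  ext (i | i)
  · simpa [Bp, fromBlocks_transpose, fromBlocks_add, fromBlocks_mulVec] using congrFun h (.inr i)
  · simpa [Bp, fromBlocks_transpose, fromBlocks_add, fromBlocks_mulVec] using congrFun h (.inl i)

theorem Bm_nd (v) (h : (Bm m + (Bm m)ᵀ) *ᵥ v = 0) : v = 0 := by
  rw [Bm, fromBlocks_transpose, fromBlocks_add, fromBlocks_mulVec] at h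
  ext (i | i)
  · exact congrFun (Bp_nd (v ∘ Sum.inl) (funext fun j => by simpa using congrFun h (.inl j))) i
  · fin_cases i
    · simpa [mulVec, dotProduct, z2_add] using congrFun h (.inr 1)
    · simpa [mulVec, dotProduct, z2_add] using congrFun h (.inr 0)

theorem sqCount_of_elem {G : Type*} [Group G] [Finite G] {C A : Subgroup G} {z : G} (h : AES 2 C z) (hc : C ⊓ C_(C) ≤ zpowers z)
    (hn : Nat.card C = 2 ^ (2 * m + 1)) (hA : A ≤ C) (h1 : IsElementaryAbelian 2 A) (h2 : Nat.card A = 2 ^ (m + 1)) :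
    sqCount C 1 = 2 ^ (2 * m) + 2 ^ m := (h.sqCount_of_center hc hn).resolve_right fun e => by
  have := h.card_le_of_minus hc m hn e A hA h1
  have := Nat.two_pow_pos m
  omega

theorem card_Bp : Nat.card (XG (Bp m)) = 2 ^ (2 * m + 1) := by simp [XG.card, two_mul]

theorem card_Bm : Nat.card (XG (Bm m)) = 2 ^ (2 * (m + 1) + 1) := by rw [XG.card]; simp; omega

theorem sq_Bp : Nat.card {x : XG (Bp m) // x ^ 2 = 1} = 2 ^ (2 * m) + 2 ^ m := by
  obtain ⟨A, h1, h2, -⟩ := XG.exists_elem (B := Bp m) (AddMonoidHom.mk' (fun a => Sum.elim a 0) fun a b => by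
    ext (i | i) <;> simp) (fun a b e => funext fun i => congrFun e (.inl i)) fun a b => by simp [Bp_eq]
  rw [← sqCount_top]
  exact sqCount_of_elem XG.aes (inf_cent_top.le.trans (XG.center_le Bp_nd)) (by rw [card_top, card_Bp]) le_top h1 h2

theorem sq_Bm : Nat.card {x : XG (Bm m) // x ^ 2 = 1} + 2 ^ (m + 1) = 2 ^ (2 * (m + 1)) := by
  obtain ⟨A, h1, h2, h3⟩ := XG.exists_elem (B := Bm m) (AddMonoidHom.mk' (fun a => Sum.elim (Sum.elim a 0) 0) fun a b => by
    ext ((i | i) | i) <;> simp) (fun a b e => funext fun i => congrFun e (.inl (.inl i))) fun a b => by simp [Bm_eq]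
  let x : XG (Bm m) := ⟨Pi.single (.inr 0) 1, 0⟩
  let y : XG (Bm m) := ⟨Pi.single (.inr 1) 1, 0⟩
  have h4 : ¬ Commute x y := fun e => by
    have := congrArg XG.c e.eq
    simp only [XG.mul_c, Bm_eq] at this
    simp [x, y] at this
  have h := XG.aes (B := Bm m)
  obtain ⟨k, e, hk⟩ := h.card_spl (mem_top x) (mem_top y) h4 (by rw [card_top, card_Bm])
  obtain rfl : m = k := by omega
  have h5 := sqCount_of_elem (h.spl (mem_top x) (mem_top y)) ((h.center_spl (mem_top x) (mem_top y) h4).le.trans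
    (inf_cent_top.le.trans (XG.center_le Bm_nd))) hk (fun a ha => by
      obtain ⟨b, hb⟩ := h3 a ha
      exact mem_spl.2 ⟨mem_top _, XG.ext (add_comm _ _) (by simp only [XG.mul_c, Bm_eq]; simp [hb, x]),
        XG.ext (add_comm _ _) (by simp only [XG.mul_c, Bm_eq]; simp [hb, y])⟩) h1 h2
  have h6 := h.sqCount_spl (mem_top x) (mem_top y) h4
  have h7 := (h.spl (mem_top x) (mem_top y)).sqCount_add
  rw [show x ^ 2 = XG.z from XG.ext (by simp [pow_two, XG.z]) (by simp only [pow_two, XG.mul_c, Bm_eq]; simp [XG.z, x]),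
    show y ^ 2 = XG.z from XG.ext (by simp [pow_two, XG.z]) (by simp only [pow_two, XG.mul_c, Bm_eq]; simp [XG.z, y]),
    show (x * y) ^ 2 = XG.z from XG.ext (by simp [pow_two, XG.z]) (by
      simp only [pow_two, XG.mul_c, Bm_eq]; simp [XG.z, x, y]; rfl), sqCount_top] at h6
  rw [hk] at h7
  rw [show 2 * (m + 1) = 2 * m + 1 + 1 by ring]
  simp only [pow_succ] at *
  omega

end H03
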